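import Cfsg.Agent.H179.SLC.Mult
import Cfsg.Agent.H939.L64.DefR

/-!
# S5915: the pieces R1, R2, R3a, R4a, R4b in the language of `H939/L64/DefR.lean` (helper179)
-/

set_option autoImplicit false
set_option linter.unusedSectionVars false

namespace Cfsg.Agent.H179.SLC

open Matrix Cfsg.Agent.H943.SL2Rel Cfsg.Agent.H943.RepAdd Cfsg.Agent.H943.SL2Mod Cfsg.Agent.H939.L64

theorem card_filter_range (n : ℕ) (p : ℕ → Bool) :
    ((Finset.range n).filter (fun m => p m = true)).card = ((List.range n).filter p).length := by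
  rw [Finset.card_def, Finset.filter_val]
  show Multiset.card (Multiset.filter _ (↑(List.range n) : Multiset ℕ)) = _
  rw [Multiset.filter_coe, Multiset.coe_card]
  congr 1
  exact List.filter_congr fun x _ => by simp

theorem oc_land : ∀ b < 64, ∀ m < 64, oc 6 b m = ((m &&& b) == m) := by decide +kernel

theorem length_subm {b : ℕ} (hb : b < 64) (p : ℕ → Bool) :
    ((subm b).filter p).length = ((Bn b).filter fun m => p m = true).card := by
  unfold subm Bn
  rw [List.filter_filter, Finset.filter_filter, ← card_filter_range]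
  congr 1
  refine Finset.filter_congr fun m hm => ?_
  have hm' := Finset.mem_range.1 hm
  rw [oc_land b hb m (by omega)]
  simp [and_comm]

section Weights

variable {k : Type*} [Field k] [DecidableEq k]

theorem mf_eq {ζ : k} {N : ℕ} (hN : 2 ≤ N) (hζ : IsPrimitiveRoot ζ N) {b j : ℕ} (hb : b < 64) (hj : j < N) :
    mf b ζ (ζ ^ j) = ((subm b).filter fun m => (2 * m + (N - 1) * b) % N == j).length := by
  rw [length_subm hb]
  unfold mf
  congr 1
  refine Finset.filter_congr fun m hm => ?_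
  have hmb : m ≤ b := by
    have := Finset.mem_range.1 (Finset.mem_filter.1 hm).1
    omega
  have h1 : ζ ^ m * ζ⁻¹ ^ (b - m) = ζ ^ ((2 * m + (N - 1) * b) % N) := by
    have h2 : ζ⁻¹ = ζ ^ (N - 1) := by
      symm
      apply eq_inv_of_mul_eq_one_left
      rw [← pow_succ, Nat.sub_add_cancel (by omega), hζ.pow_eq_one]
    have hmod : ∀ x : ℕ, ζ ^ x = ζ ^ (x % N) := by
      intro x
      conv_lhs => rw [← Nat.div_add_mod x N, pow_add, pow_mul, hζ.pow_eq_one, one_pow, one_mul]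
    rw [h2, ← pow_mul, ← pow_add, hmod]
    congr 1
    obtain ⟨i, rfl⟩ := Nat.exists_eq_add_of_le hmb
    obtain ⟨M, rfl⟩ := Nat.exists_eq_add_of_le hN
    rw [Nat.add_sub_cancel_left]
    have h3 : 2 * m + (2 + M - 1) * (m + i) = (m + (2 + M - 1) * i) + (2 + M) * m := by
      have h4 : 2 + M - 1 = M + 1 := by omega
      rw [h4]
      ring
    rw [h3, Nat.add_mul_mod_self_left]
  rw [h1]
  simp only [beq_iff_eq]
  constructor
  · intro h
    exact hζ.pow_inj (Nat.mod_lt _ (by omega)) hj h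
  · intro h
    rw [h]

end Weights

/-- the characteristic of `F` -/
theorem charF {k F : Type*} [Field k] [CharP k 2] [Field F] (ι : F →+* k) : CharP F 2 :=
  (RingHom.charP_iff ι ι.injective 2).2 inferInstance

section Cases

variable {k : Type*} [Field k] [CharP k 2] [DecidableEq k] {F : Type*} [Field F] [Fintype F] [DecidableEq F] [CharP F 2]
  (ι : F →+* k)

theorem exists_cob_rb (hq : Fintype.card F = 64) (hι : Function.Injective ι)
    (hs1 : (-1 : k) ^ (Fintype.card F - 1) = 1) {b : ℕ} (hb : b ≤ Fintype.card F - 1) (hb0 : b ≠ 0)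
    (hb2 : isP b = false) (c : Z1 (rb ι 2 hs1 hb)) : ∃ v, c = cob _ v := by
  rcases Nat.lt_or_ge b (Fintype.card F - 1) with hb' | hb'
  · obtain ⟨v, hv⟩ := exists_ZT (rb ι 2 hs1 hb) cast_N c
    exact ⟨v, sub_eq_zero.1 (ZT_zero ι hq hι hs1 (Nat.pos_of_ne_zero hb0) hb' hb2 _ hv)⟩
  · have hbe : b = Fintype.card F - 1 := by omega
    subst hbe
    exact cob_St ι hι hs1 c

end Cases

section Transfer

variable {k : Type*} [Field k] [CharP k 2] {F : Type*} [Field F] [Fintype F] [DecidableEq F] [CharP F 2]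
  (ι : F →+* k) {V : Type*} [AddCommGroup V] [Module k V] {ρ : Representation k (SpecialLinearGroup (Fin 2) F) V}

theorem isV_of_equiv (hs1 : (-1 : k) ^ (Fintype.card F - 1) = 1) {b : ℕ} (hb : b ≤ Fintype.card F - 1) {W : Submodule k V}
    {hW : ∀ g, ∀ x ∈ W, ρ g x ∈ W} (φ : Vb ι b ≃ₗ[k] W) (hφ : ∀ g x, φ (rb ι 2 hs1 hb g x) = subRep ρ W hW g (φ x)) :
    IsV ι b ρ W := by
  obtain ⟨ψ, hψ⟩ := LinearMap.exists_extend (W.subtype.comp (φ : Vb ι b →ₗ[k] W))
  have h1 : ∀ f (hf : f ∈ Vb ι b), ψ f = (φ ⟨f, hf⟩ : V) := fun f hf => LinearMap.congr_fun hψ ⟨f, hf⟩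
  refine ⟨ψ, fun g f hf => ?_, ?_, fun f hf h0 => ?_⟩
  · have h2 : fRep k F g f ∈ Vb ι b := inv_Vb ι 2 hs1 hb g f hf
    refine ⟨h2, ?_⟩
    rw [h1 _ h2, h1 _ hf]
    exact congrArg Subtype.val (hφ g ⟨f, hf⟩)
  · ext x
    constructor
    · rintro ⟨f, hf, rfl⟩
      rw [h1 f hf]
      exact (φ ⟨f, hf⟩).2
    · intro hx
      refine ⟨(φ.symm ⟨x, hx⟩ : F × F → k), (φ.symm ⟨x, hx⟩).2, ?_⟩
      rw [h1 _ (φ.symm ⟨x, hx⟩).2]
      exact congrArg Subtype.val (φ.apply_symm_apply ⟨x, hx⟩)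
  · rw [h1 f hf] at h0
    have h2 : φ ⟨f, hf⟩ = 0 := Subtype.ext h0
    have h3 := (LinearEquiv.map_eq_zero_iff φ).1 h2
    exact congrArg Subtype.val h3

theorem exists_equiv (hs1 : (-1 : k) ^ (Fintype.card F - 1) = 1) {b : ℕ} (hb : b ≤ Fintype.card F - 1) {W : Submodule k V}
    (hW : ∀ g, ∀ x ∈ W, ρ g x ∈ W) (h : IsV ι b ρ W) :
    ∃ φ : Vb ι b ≃ₗ[k] W, ∀ g x, φ (rb ι 2 hs1 hb g x) = subRep ρ W hW g (φ x) := by
  obtain ⟨ψ, h1, h2, h3⟩ := h
  let f : Vb ι b →ₗ[k] W :=
    { toFun := fun x => ⟨ψ x, by rw [← h2]; exact ⟨x, x.2, rfl⟩⟩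
      map_add' := fun x y => Subtype.ext (map_add ψ _ _)
      map_smul' := fun c x => Subtype.ext (map_smul ψ _ _) }
  have hf : Function.Bijective f := by
    constructor
    · refine (injective_iff_map_eq_zero f).2 fun x hx => ?_
      exact Subtype.ext (h3 x x.2 (congrArg Subtype.val hx))
    · rintro ⟨x, hx⟩
      rw [← h2] at hx
      obtain ⟨z, hz, e⟩ := hx
      exact ⟨⟨z, hz⟩, Subtype.ext e⟩
  refine ⟨LinearEquiv.ofBijective f hf, fun g x => Subtype.ext ?_⟩
  exact (h1 g x x.2).2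

end Transfer

section Main

variable {k : Type*} [Field k] [IsAlgClosed k] [CharP k 2] {F : Type*} [Field F] [Fintype F] [DecidableEq F] {ι : F →+* k}
  {lam : Fˣ} {y : SpecialLinearGroup (Fin 2) F} {ζ : k}

theorem isSS_y (D : Dat ι lam y ζ) : IsSS ι y ζ := by
  refine isSS_of_trace ι (D.prim.ne_zero (by norm_num)) D.tr fun h => ?_
  have h0 := D.prim.ne_zero (by norm_num)
  have h1 : ζ ^ 2 = 1 := by
    rw [sq]
    nth_rw 2 [h]
    exact mul_inv_cancel₀ h0
  have h2 := D.prim.dvd_of_pow_eq_one 2 h1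
  omega

theorem prim_lam (D : Dat ι lam y ζ) : IsPrimitiveRoot (ι lam) 63 := by
  classical
  have h := primitive ι ι.injective D.gen
  rwa [D.card] at h

theorem isMult_specM (D : Dat ι lam y ζ) [DecidableEq k] {V : Type*} [AddCommGroup V] [Module k V]
    {ρ : Representation k (SpecialLinearGroup (Fin 2) F) V} {n : ℕ → ℕ} (h : IsMult ι ρ n) : SpecM ι ρ lam y ζ n := by
  constructor
  · intro j hj
    unfold e65
    rw [h.eigen y ζ 65 (isSS_y D) D.prim.pow_eq_one (by
      rw [Ne, CharP.cast_eq_zero_iff k 2]; norm_num) (ζ ^ j) (by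
      rw [← pow_mul, mul_comm, pow_mul, D.prim.pow_eq_one, one_pow])]
    refine Finset.sum_congr rfl fun b hb => ?_
    rw [mf_eq (by norm_num) D.prim (Finset.mem_range.1 hb) hj]
    rfl
  · intro j hj
    have hl := prim_lam D
    unfold e63
    rw [h.eigen (Cfsg.Agent.H943.SL2Rel.h lam) (ι lam) 63 (isSS_h ι lam) hl.pow_eq_one (by
      rw [Ne, CharP.cast_eq_zero_iff k 2]; norm_num) (ι lam ^ j) (by
      rw [← pow_mul, mul_comm, pow_mul, hl.pow_eq_one, one_pow])]
    refine Finset.sum_congr rfl fun b hb => ?_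
    rw [mf_eq (by norm_num) hl (Finset.mem_range.1 hb) hj]
    rfl

universe v

/-- **R1** -/
theorem R1 (D : Dat ι lam y ζ) {V : Type v} [AddCommGroup V] [Module k V] [FiniteDimensional k V]
    (ρ : Representation k (SpecialLinearGroup (Fin 2) F) V) (hI : Irr ρ) : ∃ b < 64, IsV ι b ρ ⊤ := by
  classical
  have := charF ι
  obtain ⟨b, hb, φ, hφ⟩ := irr_iso ι 2 ρ ι.injective hs_one hI
  have hc := D.card
  refine ⟨b, by omega, isV_of_equiv ι hs_one hb (hW := fun _ _ _ => Submodule.mem_top)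
    (φ.trans Submodule.topEquiv.symm) fun g x => Subtype.ext ?_⟩
  exact hφ g x

/-- **R2** -/
theorem R2 (D : Dat ι lam y ζ) {V : Type v} [AddCommGroup V] [Module k V] [FiniteDimensional k V]
    (ρ : Representation k (SpecialLinearGroup (Fin 2) F) V) (W : Submodule k V) (hW : ∀ g, ∀ x ∈ W, ρ g x ∈ W)
    {b : ℕ} (hb : b < 64) (h : IsV ι b ρ W) : (∀ j < 65, e65 (subRep ρ W hW) y ζ j = w65 b j) ∧
      ∀ j < 63, e63 ι (subRep ρ W hW) lam j = w63 b j := by
  classical
  have := charF ι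
  have hc := D.card
  obtain ⟨φ, hφ⟩ := exists_equiv ι hs_one (by omega) hW h
  have h1 := isMult_specM D ((isMult_rb ι hc ι.injective hs_one (by omega)).of_iso ι φ hφ)
  refine ⟨fun j hj => ?_, fun j hj => ?_⟩
  · rw [h1.1 j hj, sum_single hb]
  · rw [h1.2 j hj, sum_single hb]

/-- **R3a** -/
theorem R3a (D : Dat ι lam y ζ) {V : Type v} [AddCommGroup V] [Module k V] [FiniteDimensional k V]
    (ρ : Representation k (SpecialLinearGroup (Fin 2) F) V) : ∃ m : ℕ → ℕ, SpecM ι ρ lam y ζ m := by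
  classical
  have := charF ι
  obtain ⟨n, hn⟩ := exists_isMult ι D.card ι.injective ρ
  exact ⟨n, isMult_specM D hn⟩

/-- pressure, for some multiplicity function -/
theorem exists_pressure (D : Dat ι lam y ζ) {V : Type v} [AddCommGroup V] [Module k V] [FiniteDimensional k V]
    (ρ : Representation k (SpecialLinearGroup (Fin 2) F) V) : ∃ m : ℕ → ℕ, SpecM ι ρ lam y ζ m ∧
      m 0 ≤ Module.finrank k (fixS ρ) + ∑ i ∈ Finset.range 6, m (2 ^ i) := by
  classical
  have := charF ι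
  obtain ⟨n, hn⟩ := exists_isMult ι D.card ι.injective ρ
  refine ⟨n, isMult_specM D hn, ?_⟩
  have h1 := hn.pressure
  have h2 : fx ρ = fixS ρ := rfl
  rw [h2] at h1
  simpa [Finset.sum_range_succ] using h1

theorem isP_of {b : ℕ} (hb2 : ∀ i, b ≠ 2 ^ i) : isP b = false := by
  unfold isP
  simp only [List.contains_eq_mem, List.mem_cons, List.not_mem_nil, or_false, decide_eq_false_iff_not, not_or]
  exact ⟨hb2 0, hb2 1, hb2 2, hb2 3, hb2 4, hb2 5⟩

/-- **R4a** -/
theorem R4a (D : Dat ι lam y ζ) {V : Type v} [AddCommGroup V] [Module k V] [FiniteDimensional k V]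
    (ρ : Representation k (SpecialLinearGroup (Fin 2) F) V) (W : Submodule k V) {b : ℕ} (hb : b < 64) (hb0 : b ≠ 0)
    (hb2 : ∀ i, b ≠ 2 ^ i) (h : IsV ι b ρ W) (hV : ∀ g x, ρ g x - x ∈ W) :
    ∀ x : V, ∃ w ∈ W, x - w ∈ fixS ρ := by
  classical
  have := charF ι
  have hc := D.card
  have hW : ∀ g, ∀ x ∈ W, ρ g x ∈ W := by
    intro g x hx
    have h1 := W.add_mem (hV g x) hx
    rwa [sub_add_cancel] at h1
  obtain ⟨φ, hφ⟩ := exists_equiv ι hs_one (by omega : b ≤ Fintype.card F - 1) hW h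
  intro x
  have hφ' : ∀ g z, φ.symm (subRep ρ W hW g z) = rb ι 2 hs_one (by omega : b ≤ Fintype.card F - 1) g (φ.symm z) := by
    intro g z
    apply φ.injective
    rw [LinearEquiv.apply_symm_apply, hφ, LinearEquiv.apply_symm_apply]
  let c : Z1 (rb ι 2 hs_one (by omega : b ≤ Fintype.card F - 1)) := ⟨fun g => φ.symm ⟨ρ g x - x, hV g x⟩, by
    intro g g'
    show φ.symm _ = φ.symm _ + rb ι 2 hs_one _ g (φ.symm _)
    rw [← hφ', ← map_add]
    congr 1
    apply Subtype.ext
    show ρ (g * g') x - x = (ρ g x - x) + ρ g (ρ g' x - x)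
    rw [map_mul, map_sub, Module.End.mul_apply]
    abel⟩
  obtain ⟨v, hv⟩ := exists_cob_rb ι hc ι.injective hs_one (by omega) hb0 (isP_of hb2) c
  refine ⟨φ v, (φ v).2, fun g => ?_⟩
  have h1 := congrFun (congrArg Subtype.val hv) g
  have h2 : φ.symm ⟨ρ g x - x, hV g x⟩ = rb ι 2 hs_one (by omega) g v - v := h1
  have h3 := congrArg φ h2
  rw [LinearEquiv.apply_symm_apply, map_sub, hφ] at h3
  have h4 : ρ g x - x = ρ g (φ v : V) - (φ v : V) := congrArg Subtype.val h3
  rw [map_sub]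
  rw [sub_eq_sub_iff_add_eq_add] at h4 ⊢
  rw [h4, add_comm]

/-- **R4b** -/
theorem R4b (D : Dat ι lam y ζ) {V : Type v} [AddCommGroup V] [Module k V] [FiniteDimensional k V]
    (ρ : Representation k (SpecialLinearGroup (Fin 2) F) V) (W : Submodule k V) {i : ℕ} (hi : i < 6)
    (h : IsV ι (2 ^ i) ρ W) (hV : ∀ g x, ρ g x - x ∈ W) (h0 : fixS ρ = ⊥) :
    Module.finrank k V ≤ Module.finrank k W + 1 := by
  classical
  have := charF ι
  have hc := D.card
  have hi2 : 2 ^ i < 64 := by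
    have : 2 ^ i < 2 ^ 6 := Nat.pow_lt_pow_right (by norm_num) hi
    omega
  have hW : ∀ g, ∀ x ∈ W, ρ g x ∈ W := by
    intro g x hx
    have h1 := W.add_mem (hV g x) hx
    rwa [sub_add_cancel] at h1
  obtain ⟨φ, hφ⟩ := exists_equiv ι hs_one (by omega : 2 ^ i ≤ Fintype.card F - 1) hW h
  have h1 := finrank_Z1_rb ι hc ι.injective hs_one (by omega : 2 ^ i ≤ Fintype.card F - 1)
  rw [finrank_Z1_iso _ _ φ hφ] at h1
  let f : V →ₗ[k] Z1 (subRep ρ W hW) :=
    { toFun := fun x => ⟨fun g => ⟨ρ g x - x, hV g x⟩, by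
        intro g g'
        apply Subtype.ext
        show ρ (g * g') x - x = (ρ g x - x) + ρ g (ρ g' x - x)
        rw [map_mul, map_sub, Module.End.mul_apply]
        abel⟩
      map_add' := fun x y => Subtype.ext (funext fun g => Subtype.ext (by
        show ρ g (x + y) - (x + y) = (ρ g x - x) + (ρ g y - y)
        rw [map_add]; abel))
      map_smul' := fun a x => Subtype.ext (funext fun g => Subtype.ext (by
        show ρ g (a • x) - a • x = a • (ρ g x - x)
        rw [map_smul, smul_sub])) }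
  have hf : Function.Injective f := by
    refine (injective_iff_map_eq_zero f).2 fun x hx => ?_
    have h2 : x ∈ fixS ρ := by
      intro g
      have h3 := congrFun (congrArg Subtype.val hx) g
      have h4 : ρ g x - x = 0 := congrArg Subtype.val h3
      exact sub_eq_zero.1 h4
    rw [h0] at h2
    exact (Submodule.mem_bot k).1 h2
  have h2 := LinearMap.finrank_le_finrank_of_injective hf
  have h3 : zb (2 ^ i) ≤ Module.finrank k W + 1 := by
    rw [← φ.finrank_eq, finrank_Vb ι 2 ι.injective hs_one (by omega), Bf_eq (by omega)]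
    unfold zb
    rw [if_neg (by positivity)]
    by_cases hp : isP (2 ^ i) = true <;> simp [hp]
  omega

end Main

end Cfsg.Agent.H179.SLC
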