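import Cfsg.Agent.H943.SL2Fun

/-!
# Cocycles (helper179)

`Z1 ρ` : the 1-cocycles of a representation of a finite group; `finrank_le` : `dim V ≤ dim V ^ G + dim Z1`;
`finrank_Z1_le` : subadditivity of `dim Z1`; `cob_of_res` : a cocycle which vanishes on a subgroup of index prime to the
characteristic is a coboundary.
-/

set_option autoImplicit false
set_option linter.unusedSectionVars false

namespace Cfsg.Agent.H179.SLC

open Cfsg.Agent.H943.RepAdd

variable {k : Type*} [Field k] {G : Type*} [Group G] {V : Type*} [AddCommGroup V] [Module k V]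
  (ρ : Representation k G V)

/-- the 1-cocycles -/
def Z1 : Submodule k (G → V) where
  carrier := {c | ∀ g h, c (g * h) = c g + ρ g (c h)}
  zero_mem' := fun g h => by simp
  add_mem' := fun {a b} ha hb g h => by
    show a (g * h) + b (g * h) = a g + b g + ρ g (a h + b h)
    rw [ha, hb, map_add]
    abel
  smul_mem' := fun c x hx g h => by
    show c • x (g * h) = c • x g + ρ g (c • x h)
    rw [hx, map_smul, smul_add]

theorem mem_Z1 {c : G → V} : c ∈ Z1 ρ ↔ ∀ g h, c (g * h) = c g + ρ g (c h) := Iff.rfl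

/-- the coboundary map -/
def cob : V →ₗ[k] Z1 ρ where
  toFun v := ⟨fun g => ρ g v - v, fun g h => by
    show ρ (g * h) v - v = ρ g v - v + ρ g (ρ h v - v)
    rw [map_mul, map_sub, Module.End.mul_apply]; abel⟩
  map_add' x y := Subtype.ext (funext fun g => by
    show ρ g (x + y) - (x + y) = (ρ g x - x) + (ρ g y - y)
    rw [map_add]; abel)
  map_smul' c x := Subtype.ext (funext fun g => by
    show ρ g (c • x) - c • x = c • (ρ g x - x)
    rw [map_smul, smul_sub])

theorem cob_apply (v : V) (g : G) : (cob ρ v : G → V) g = ρ g v - v := rfl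

/-- the fixed vectors -/
def fx : Submodule k V where
  carrier := {x | ∀ g, ρ g x = x}
  zero_mem' := fun g => map_zero _
  add_mem' := fun {a b} ha hb g => by rw [map_add, ha, hb]
  smul_mem' := fun c x hx g => by rw [map_smul, hx]

theorem mem_fx {x : V} : x ∈ fx ρ ↔ ∀ g, ρ g x = x := Iff.rfl

theorem ker_cob : LinearMap.ker (cob ρ) = fx ρ := by
  ext x
  rw [LinearMap.mem_ker, mem_fx]
  constructor
  · intro h g
    have h1 := congrFun (congrArg Subtype.val h) g
    exact sub_eq_zero.1 h1
  · intro h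
    exact Subtype.ext (funext fun g => sub_eq_zero.2 (h g))

theorem Z1_one (c : Z1 ρ) : (c : G → V) 1 = 0 := by
  have h := c.2 1 1
  rw [one_mul, map_one, Module.End.one_apply] at h
  have h2 : (c : G → V) 1 + 0 = (c : G → V) 1 + (c : G → V) 1 := by rw [add_zero]; exact h
  exact (add_left_cancel h2).symm

section Finite

variable [Finite G] [FiniteDimensional k V]

/-- `dim V ≤ dim V ^ G + dim Z1` -/
theorem finrank_le : Module.finrank k V ≤ Module.finrank k (fx ρ) + Module.finrank k (Z1 ρ) := by
  have h := LinearMap.finrank_range_add_finrank_ker (cob ρ)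
  rw [ker_cob] at h
  have h2 := Submodule.finrank_le (LinearMap.range (cob ρ))
  omega

/-- subadditivity -/
theorem finrank_Z1_le (W : Submodule k V) (hW : ∀ g, ∀ x ∈ W, ρ g x ∈ W) :
    Module.finrank k (Z1 ρ) ≤ Module.finrank k (Z1 (subRep ρ W hW)) + Module.finrank k (Z1 (quotRep ρ W hW)) := by
  let f : Z1 ρ →ₗ[k] Z1 (quotRep ρ W hW) :=
    { toFun := fun c => ⟨fun g => W.mkQ (c.1 g), fun g h => by
        show W.mkQ (c.1 (g * h)) = W.mkQ (c.1 g) + quotRep ρ W hW g (W.mkQ (c.1 h))
        rw [c.2, map_add, quotRep_mk]⟩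
      map_add' := fun x y => Subtype.ext (funext fun g => by
        show W.mkQ (x.1 g + y.1 g) = W.mkQ (x.1 g) + W.mkQ (y.1 g)
        rw [map_add])
      map_smul' := fun a x => Subtype.ext (funext fun g => by
        show W.mkQ (a • x.1 g) = a • W.mkQ (x.1 g)
        rw [map_smul]) }
  have h := LinearMap.finrank_range_add_finrank_ker f
  have h1 : Module.finrank k (LinearMap.range f) ≤ Module.finrank k (Z1 (quotRep ρ W hW)) := Submodule.finrank_le _
  have hmem : ∀ c : LinearMap.ker f, ∀ g, (c : Z1 ρ).1 g ∈ W := by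
    intro c g
    have h3 : f (c : Z1 ρ) = 0 := c.2
    have h4 := congrFun (congrArg Subtype.val h3) g
    exact (Submodule.Quotient.mk_eq_zero W).1 h4
  let e : LinearMap.ker f →ₗ[k] Z1 (subRep ρ W hW) :=
    { toFun := fun c => ⟨fun g => ⟨(c : Z1 ρ).1 g, hmem c g⟩, fun g h => Subtype.ext ((c : Z1 ρ).2 g h)⟩
      map_add' := fun x y => rfl
      map_smul' := fun a x => rfl }
  have he : Function.Injective e := by
    intro x y hxy
    apply Subtype.ext
    apply Subtype.ext
    funext g
    exact congrArg Subtype.val (congrFun (congrArg Subtype.val hxy) g)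
  have h2 := LinearMap.finrank_le_finrank_of_injective he
  omega

end Finite

/-- transport along an isomorphism -/
theorem finrank_Z1_iso {V₂ : Type*} [AddCommGroup V₂] [Module k V₂] (ρ₂ : Representation k G V₂) (φ : V ≃ₗ[k] V₂)
    (h : ∀ g x, φ (ρ g x) = ρ₂ g (φ x)) : Module.finrank k (Z1 ρ) = Module.finrank k (Z1 ρ₂) := by
  have h' : ∀ g x, φ.symm (ρ₂ g x) = ρ g (φ.symm x) := by
    intro g x
    apply φ.injective
    rw [LinearEquiv.apply_symm_apply, h, LinearEquiv.apply_symm_apply]
  let e : Z1 ρ ≃ₗ[k] Z1 ρ₂ :=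
    { toFun := fun c => ⟨fun g => φ (c.1 g), fun g g' => by
        show φ (c.1 (g * g')) = φ (c.1 g) + ρ₂ g (φ (c.1 g'))
        rw [c.2, map_add, h]⟩
      invFun := fun c => ⟨fun g => φ.symm (c.1 g), fun g g' => by
        show φ.symm (c.1 (g * g')) = φ.symm (c.1 g) + ρ g (φ.symm (c.1 g'))
        rw [c.2, map_add, h']⟩
      left_inv := fun c => Subtype.ext (funext fun g => φ.symm_apply_apply _)
      right_inv := fun c => Subtype.ext (funext fun g => φ.apply_symm_apply _)
      map_add' := fun x y => Subtype.ext (funext fun g => map_add φ _ _)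
      map_smul' := fun a x => Subtype.ext (funext fun g => map_smul φ _ _) }
  exact e.finrank_eq

/-- a cocycle which vanishes on a subgroup of index prime to the characteristic is a coboundary -/
theorem cob_of_res [Finite G] (H : Subgroup G) (hH : (H.index : k) ≠ 0) {c : G → V} (hc : c ∈ Z1 ρ)
    (h0 : ∀ g ∈ H, c g = 0) : ∃ v, ∀ g, c g = ρ g v - v := by
  classical
  have : Fintype (G ⧸ H) := Fintype.ofFinite _
  have hwd : ∀ a b : G, QuotientGroup.leftRel H a b → c a = c b := by
    intro a b hab
    rw [QuotientGroup.leftRel_apply] at hab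
    have h1 : b = a * (a⁻¹ * b) := by group
    rw [h1, hc, h0 _ hab, map_zero, add_zero]
  let d : G ⧸ H → V := fun x => Quotient.liftOn' x c hwd
  have hd : ∀ g : G, d (g : G ⧸ H) = c g := fun g => rfl
  have hgd : ∀ (g : G) (x : G ⧸ H), ρ g (d x) = d (g • x) - c g := by
    intro g x
    obtain ⟨a, rfl⟩ := QuotientGroup.mk_surjective x
    have h1 : g • (a : G ⧸ H) = ((g * a : G) : G ⧸ H) := rfl
    rw [h1, hd, hd, hc]
    abel
  refine ⟨-((H.index : k)⁻¹ • ∑ x : G ⧸ H, d x), fun g => ?_⟩
  have h1 : ρ g (∑ x : G ⧸ H, d x) = ∑ x : G ⧸ H, d x - (H.index : k) • c g := by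
    rw [map_sum, Finset.sum_congr rfl fun x _ => hgd g x, Finset.sum_sub_distrib, Finset.sum_const, Finset.card_univ,
      Nat.cast_smul_eq_nsmul]
    congr 1
    · exact Fintype.sum_equiv (MulAction.toPerm g) _ _ fun x => rfl
    · rw [Subgroup.index, Nat.card_eq_fintype_card]
  rw [map_neg, map_smul, h1, smul_sub, smul_smul, inv_mul_cancel₀ hH, one_smul]
  abel

end Cfsg.Agent.H179.SLC
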