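import Cfsg.Agent.H179.SLC.HOne
import Cfsg.Agent.ClassicalGeometry.PSL2Basic

/-!
# The dimensions of `Z¹(SL₂(64), V_b)` (helper179)

`zb b` : `0` for `b = 0`; `dim V_b + 1` for `b` a power of 2; `dim V_b` otherwise. `finrank_Z1_rb : dim Z¹ ≤ zb b`.
-/

set_option autoImplicit false
set_option linter.unusedSectionVars false

namespace Cfsg.Agent.H179.SLC

open Matrix Cfsg.Agent.H943.SL2Rel Cfsg.Agent.H943.RepAdd Cfsg.Agent.H943.SL2Mod

variable {k : Type*} [Field k] [CharP k 2] [DecidableEq k] {F : Type*} [Field F] [Fintype F] [DecidableEq F] [CharP F 2]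
  (ι : F →+* k)

theorem cast_N : ((Fintype.card F - 1 : ℕ) : k) ≠ 0 := by
  rw [Ne, CharP.cast_eq_zero_iff k 2]
  exact odd_card

/-- the torus has no fixed vectors on `V_b` -/
theorem fixT (hι : Function.Injective ι) (hs1 : (-1 : k) ^ (Fintype.card F - 1) = 1) {b : ℕ} (hb0 : 0 < b)
    (hb : b < Fintype.card F - 1) (v : Vb ι b) (hv : ∀ a : Fˣ, rb ι 2 hs1 hb.le (h a) v = v) : v = 0 := by
  obtain ⟨e, he⟩ := exists_coord ι 2 hι hs1 hb.le
  obtain ⟨x, rfl⟩ := e.surjective v
  have h1 : ∀ a : Fˣ, e (fun m => (ι a ^ (m : ℕ) * (ι a)⁻¹ ^ (b - m)) * x m) = e x := by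
    intro a
    rw [← hv a]
    apply Subtype.ext
    rw [he]
    show _ = fRep k F (h a) ((e x : Vb ι b) : F × F → k)
    rw [he, map_sum]
    refine Finset.sum_congr rfl fun m _ => ?_
    rw [map_smul, h_mon, smul_smul, mul_comm]
  have hx : x = 0 := by
    funext m
    by_contra hm
    have hm' := mem_Bf.1 m.2
    have h2 : ∀ s : Fˣ, s ^ ex (Fintype.card F - 1) b m = 1 := by
      intro s
      obtain ⟨a, ha⟩ := FiniteField.isSquare_of_char_two (F := F) (ringChar.eq_iff.2 inferInstance) (s : F)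
      have ha0 : a ≠ 0 := by
        rintro rfl
        exact s.ne_zero (by rw [ha, mul_zero])
      have h3 := congrFun (e.injective (h1 (Units.mk0 a ha0))) m
      have h4 : ι (Units.mk0 a ha0) ^ (m : ℕ) * (ι (Units.mk0 a ha0))⁻¹ ^ (b - m) = 1 := mul_right_cancel₀ hm (by
        rw [one_mul]; exact h3)
      rw [pow_ex ι _ hm'.1, Units.val_mk0, sq, ← ha, ← map_pow] at h4
      have h5 : (s : F) ^ ex (Fintype.card F - 1) b m = 1 := hι (by rw [h4, map_one])
      exact Units.ext (by rw [Units.val_pow_eq_pow_val, h5, Units.val_one])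
    rw [FiniteField.forall_pow_eq_one_iff] at h2
    have hq : 1 < Fintype.card F := Fintype.one_lt_card
    have h3 : ex (Fintype.card F - 1) b m < Fintype.card F - 1 := Nat.mod_lt _ (by omega)
    exact ex_ne_zero (k := k) hb0 hb hm' (Nat.eq_zero_of_dvd_of_lt h2 h3)
  rw [hx, map_zero]

section SixtyFour

variable (hq : Fintype.card F = 64)

include hq in
theorem ZT_zero (hι : Function.Injective ι) (hs1 : (-1 : k) ^ (Fintype.card F - 1) = 1) {b : ℕ} (hb0 : 0 < b)
    (hb : b < Fintype.card F - 1) (hP : isP b = false) : ∀ c ∈ ZT (rb ι 2 hs1 hb.le), c = 0 := by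
  intro c hc
  have hb' : b < 63 := by omega
  obtain ⟨γ, h1, h2, h3⟩ := relK ι hι hs1 hb0 hb hc
  rw [hq] at h3
  have hrel : Rel b γ := ⟨h2, h3⟩
  have h4 := rel_zero hb0 hb' hrel
  have h5 : (c.1 (u 1) : F × F → k) = 0 := by
    rw [h1]
    refine Finset.sum_eq_zero fun m hm => ?_
    have hm' := Finset.mem_range.1 hm
    rw [h4 m (by omega) (by rw [hP, if_neg (by decide)]; omega), zero_smul]
  exact ZT_eq_zero _ (fixT ι hι hs1 hb0 hb) hc (Subtype.ext h5)

include hq in
theorem finrank_ZT_le (hι : Function.Injective ι) (hs1 : (-1 : k) ^ (Fintype.card F - 1) = 1) {b : ℕ} (hb0 : 0 < b)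
    (hb : b < Fintype.card F - 1) : Module.finrank k (ZT (rb ι 2 hs1 hb.le)) ≤ if isP b then 1 else 0 := by
  have hb' : b < 63 := by omega
  -- the values at `u 1`
  have hval : ∀ c ∈ ZT (rb ι 2 hs1 hb.le), ∃ γ : k, (isP b = false → γ = 0) ∧ (c.1 (u 1) : F × F → k) = γ • mon ι b b := by
    intro c hc
    obtain ⟨γ, h1, h2, h3⟩ := relK ι hι hs1 hb0 hb hc
    rw [hq] at h3
    have hrel : Rel b γ := ⟨h2, h3⟩
    have h4 := rel_zero hb0 hb' hrel
    refine ⟨γ b, fun h0 => h4 b le_rfl (by rw [h0]; simp; omega), ?_⟩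
    rw [h1, Finset.sum_eq_single b]
    · intro m hm hmb
      have hm' := Finset.mem_range.1 hm
      rw [h4 m (by omega) (by
        by_cases h5 : isP b = true
        · rw [if_pos h5]; exact hmb
        · rw [if_neg h5]; omega), zero_smul]
    · intro h0
      exact absurd (Finset.mem_range.2 (by omega)) h0
  have hzero : ∀ c ∈ ZT (rb ι 2 hs1 hb.le), (c.1 (u 1) : F × F → k) = 0 → c = 0 := by
    intro c hc h0
    exact ZT_eq_zero _ (fixT ι hι hs1 hb0 hb) hc (Subtype.ext h0)
  by_cases hP : isP b = true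
  · rw [if_pos hP]
    let f : ZT (rb ι 2 hs1 hb.le) →ₗ[k] (F × F → k) :=
      { toFun := fun c => (((c : Z1 (rb ι 2 hs1 hb.le)).1 (u 1) : Vb ι b) : F × F → k)
        map_add' := fun x y => rfl
        map_smul' := fun a x => rfl }
    have hf : Function.Injective f := by
      intro x y hxy
      have h1 : ((x : Z1 (rb ι 2 hs1 hb.le)) - (y : Z1 (rb ι 2 hs1 hb.le))) ∈ ZT (rb ι 2 hs1 hb.le) := by
        intro a
        show (x : Z1 (rb ι 2 hs1 hb.le)).1 (h a) - (y : Z1 (rb ι 2 hs1 hb.le)).1 (h a) = 0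
        rw [x.2 a, y.2 a, sub_self]
      have h2 := hzero _ h1 (by
        show (((x : Z1 (rb ι 2 hs1 hb.le)).1 (u 1) : Vb ι b) : F × F → k) -
          (((y : Z1 (rb ι 2 hs1 hb.le)).1 (u 1) : Vb ι b) : F × F → k) = 0
        exact sub_eq_zero.2 hxy)
      exact Subtype.ext (sub_eq_zero.1 h2)
    have h1 : LinearMap.range f ≤ Submodule.span k {mon ι b b} := by
      rintro _ ⟨c, rfl⟩
      obtain ⟨γ, -, h2⟩ := hval _ c.2
      show (((c : Z1 (rb ι 2 hs1 hb.le)).1 (u 1) : Vb ι b) : F × F → k) ∈ _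
      rw [h2]
      exact Submodule.smul_mem _ _ (Submodule.mem_span_singleton_self _)
    rw [← LinearMap.finrank_range_of_inj hf]
    refine (Submodule.finrank_mono h1).trans ?_
    exact (finrank_span_le_card (R := k) ({mon ι b b} : Set (F × F → k))).trans (by simp)
  · rw [if_neg hP]
    have h1 : ZT (rb ι 2 hs1 hb.le) = ⊥ := by
      rw [eq_bot_iff]
      intro c hc
      obtain ⟨γ, h2, h3⟩ := hval c hc
      rw [h2 (by simpa using hP), zero_smul] at h3
      exact (Submodule.mem_bot k).2 (hzero c hc h3)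
    rw [h1, finrank_bot]

end SixtyFour

/-- the trivial module -/
theorem Z1_triv {V : Type*} [AddCommGroup V] [Module k V] (ρ : Representation k (SpecialLinearGroup (Fin 2) F) V)
    (hq2 : 2 < Fintype.card F) (ht : ∀ g, ρ g = 1) (c : Z1 ρ) : c = 0 := by
  have hmul : ∀ g g', c.1 (g * g') = c.1 g + c.1 g' := by
    intro g g'
    rw [c.2, ht]
    rfl
  have h2 : ∀ v : V, v + v = 0 := by
    intro v
    rw [← two_smul k v, CharTwo.two_eq_zero, zero_smul]
  have hh : ∀ a : Fˣ, c.1 (h a) = 0 := by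
    intro a
    have h1 : ∀ n : ℕ, c.1 (h a ^ n) = n • c.1 (h a) := by
      intro n
      induction n with
      | zero => rw [pow_zero, zero_smul]; exact Z1_one ρ c
      | succ n ih => rw [pow_succ, hmul, ih, succ_nsmul]
    have h3 := h1 (Fintype.card F - 1)
    rw [← h_pow, show a ^ (Fintype.card F - 1) = 1 by
      rw [← Fintype.card_units]; exact pow_card_eq_one, h_one, Z1_one ρ c, ← Nat.cast_smul_eq_nsmul k] at h3
    exact (smul_eq_zero.1 h3.symm).resolve_left cast_N
  have huu : ∀ s t : F, s ≠ 0 → t ≠ 0 → c.1 (u s) = c.1 (u t) := by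
    intro s t hs ht0
    obtain ⟨a, ha⟩ := FiniteField.isSquare_of_char_two (F := F) (ringChar.eq_iff.2 inferInstance) (s / t)
    have ha0 : a ≠ 0 := by
      rintro rfl
      rw [mul_zero] at ha
      exact (div_ne_zero hs ht0) ha
    have h1 := h_u (Units.mk0 a ha0) t
    have h3 := congrArg c.1 h1
    rw [hmul, hmul, hh, zero_add, add_zero, Units.val_mk0, sq, ← ha, div_mul_cancel₀ s ht0] at h3
    exact h3.symm
  have hu1 : c.1 (u 1) = 0 := by
    -- an element different from 0 and 1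
    obtain ⟨s, hs⟩ : ∃ s : F, s ∉ ({0, 1} : Finset F) := by
      by_contra hcon
      push Not at hcon
      have h1 : (Finset.univ : Finset F) ⊆ {0, 1} := fun x _ => hcon x
      have h3 := (Finset.card_le_card h1).trans Finset.card_le_two
      rw [Finset.card_univ] at h3
      omega
    rw [Finset.mem_insert, Finset.mem_singleton, not_or] at hs
    have h1 : c.1 (u (s + 1)) = c.1 (u s) + c.1 (u 1) := by rw [u_add, hmul]
    have hs1 : s + 1 ≠ 0 := by
      intro h0
      apply hs.2
      rw [← CharTwo.neg_eq (1 : F)]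
      exact eq_neg_of_add_eq_zero_left h0
    rw [huu (s + 1) 1 hs1 one_ne_zero, huu s 1 hs.1 one_ne_zero, h2] at h1
    exact h1
  have hu : ∀ t : F, c.1 (u t) = 0 := by
    intro t
    by_cases ht0 : t = 0
    · rw [ht0, u_zero]; exact Z1_one ρ c
    · rw [huu t 1 ht0 one_ne_zero, hu1]
  have hw : c.1 w = 0 := by
    have h1 := congrArg c.1 (w_u_w (1 : F) one_ne_zero)
    simp only [hmul, hu, hh, add_zero, zero_add, h2] at h1
    exact h1.symm
  apply Subtype.ext
  funext g
  show c.1 g = 0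
  refine induct (P := fun g => c.1 g = 0) hu hh hw ?_ g
  intro a b ha hb
  show c.1 (a * b) = 0
  rw [hmul, ha, hb, add_zero]

theorem rb_zero_triv (hs1 : (-1 : k) ^ (Fintype.card F - 1) = 1) (g : SpecialLinearGroup (Fin 2) F) :
    rb ι 2 hs1 (Nat.zero_le _) g = 1 := by
  apply LinearMap.ext
  intro x
  apply Subtype.ext
  show fRep k F g (x : F × F → k) = x
  obtain ⟨c, hc⟩ := mem_span_mon ι (Vb_le ι 0 x.2)
  rw [hc, map_sum]
  refine Finset.sum_congr rfl fun m hm => ?_
  have hm0 : m = 0 := by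
    have := Finset.mem_range.1 hm
    omega
  rw [hm0, map_smul]
  congr 1
  funext z
  show ι _ ^ 0 * ι _ ^ (0 - 0) = ι z.1 ^ 0 * ι z.2 ^ (0 - 0)
  rw [pow_zero, pow_zero, pow_zero, pow_zero]

/-- the values on a line, for `V_{q - 1}` -/
theorem exists_line (hι : Function.Injective ι) (hs1 : (-1 : k) ^ (Fintype.card F - 1) = 1) (φ : F → k) :
    ∃ v : Vb ι (Fintype.card F - 1), ∀ y : F, (v : F × F → k) (1, y) = φ y := by
  let f : Vb ι (Fintype.card F - 1) →ₗ[k] (F → k) :=
    { toFun := fun v y => (v : F × F → k) (1, y)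
      map_add' := fun _ _ => rfl
      map_smul' := fun _ _ => rfl }
  have hqp : 0 < Fintype.card F := Fintype.card_pos
  have hinj : Function.Injective f := by
    refine (injective_iff_map_eq_zero f).2 fun v hv => ?_
    obtain ⟨c, hc⟩ := mem_span_mon ι (Vb_le ι _ v.2)
    have h1 := mon_indep ι hι (b := Fintype.card F - 1) (by omega) c (by
      intro y
      have h2 := congrFun hv y
      have h3 : (v : F × F → k) (1, y) = 0 := h2
      rw [hc, Finset.sum_apply] at h3
      exact h3)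
    apply Subtype.ext
    rw [hc]
    refine Finset.sum_eq_zero fun m hm => ?_
    rw [h1 m (Nat.lt_succ_iff.1 (Finset.mem_range.1 hm)), zero_smul]
  have hfr : Module.finrank k (Vb ι (Fintype.card F - 1)) = Module.finrank k (F → k) := by
    rw [finrank_Vb ι 2 hι hs1 le_rfl, Module.finrank_fintype_fun_eq_card]
    have h3 : Bf k (Fintype.card F - 1) = Finset.range (Fintype.card F) := by
      have h4 : Fintype.card F - 1 + 1 = Fintype.card F := Nat.sub_add_cancel hqp
      unfold Bf
      rw [h4]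
      refine Finset.filter_true_of_mem fun m hm => ?_
      have hm' := Finset.mem_range.1 hm
      obtain ⟨n, -, hn⟩ := FiniteField.card F 2
      have key : ∀ n m : ℕ, m < 2 ^ n → (((2 ^ n - 1).choose m : ℕ) : k) = 1 := by
        intro n
        induction n with
        | zero =>
          intro m hm
          have : m = 0 := by omega
          subst this
          simp
        | succ n ih =>
          intro m hm
          have hp : 0 < 2 ^ n := by positivity
          have h5 : 2 ^ (n + 1) - 1 = 2 * (2 ^ n - 1) + 1 := by rw [pow_succ]; omega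
          obtain ⟨i, rfl | rfl⟩ := Nat.even_or_odd' m
          · rw [h5, ch10]
            exact ih i (by rw [pow_succ] at hm; omega)
          · rw [h5, ch11]
            exact ih i (by rw [pow_succ] at hm; omega)
      rw [hn] at hm' ⊢
      rw [key _ _ hm']
      exact one_ne_zero
    rw [h3, Finset.card_range]
  obtain ⟨v, hv⟩ := (LinearMap.injective_iff_surjective_of_finrank_eq_finrank hfr).1 hinj φ
  exact ⟨v, fun y => congrFun hv y⟩

theorem ext_line (hι : Function.Injective ι) {v v' : Vb ι (Fintype.card F - 1)}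
    (h : ∀ y : F, (v : F × F → k) (1, y) = (v' : F × F → k) (1, y)) : v = v' := by
  have hqp : 0 < Fintype.card F := Fintype.card_pos
  rw [← sub_eq_zero]
  obtain ⟨c, hc⟩ := mem_span_mon ι (Vb_le ι _ (v - v').2)
  have h1 := mon_indep ι hι (b := Fintype.card F - 1) (by omega) c (by
    intro y
    have h3 : ((v - v' : Vb ι (Fintype.card F - 1)) : F × F → k) (1, y) = 0 := by
      show (v : F × F → k) (1, y) - (v' : F × F → k) (1, y) = 0
      rw [h y, sub_self]
    rw [hc, Finset.sum_apply] at h3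
    exact h3)
  apply Subtype.ext
  rw [hc]
  refine Finset.sum_eq_zero fun m hm => ?_
  rw [h1 m (Nat.lt_succ_iff.1 (Finset.mem_range.1 hm)), zero_smul]

/-- the unipotent subgroup -/
def UG (F : Type*) [Field F] : Subgroup (SpecialLinearGroup (Fin 2) F) where
  carrier := Set.range u
  one_mem' := ⟨0, u_zero⟩
  mul_mem' := by
    rintro _ _ ⟨s, rfl⟩ ⟨t, rfl⟩
    exact ⟨s + t, u_add s t⟩
  inv_mem' := by
    rintro _ ⟨s, rfl⟩
    exact ⟨-s, u_neg s⟩

theorem u_inj {s t : F} (h : u s = u t) : s = t := by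
  have h1 := congrArg (fun g : SpecialLinearGroup (Fin 2) F => g.1 0 1) h
  exact h1

theorem index_UG : ((UG F).index : k) ≠ 0 := by
  rw [Ne, CharP.cast_eq_zero_iff k 2]
  have h1 : Nat.card (UG F) = Fintype.card F := by
    have e : F ≃ UG F := Equiv.ofBijective (fun t => ⟨u t, t, rfl⟩) ⟨fun s t h => u_inj (congrArg Subtype.val h), by
      rintro ⟨_, t, rfl⟩
      exact ⟨t, rfl⟩⟩
    rw [← Nat.card_congr e, Nat.card_eq_fintype_card]
  have h2 := (UG F).card_mul_index
  rw [Cfsg.Agent.ClassicalGeometry.PSL2Basic.card_SL2, h1] at h2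
  have hqp : 0 < Fintype.card F := Fintype.card_pos
  have h3 : (UG F).index = Fintype.card F ^ 2 - 1 := Nat.eq_of_mul_eq_mul_left hqp h2
  rw [h3]
  obtain ⟨n, -, hn⟩ := FiniteField.card F 2
  have h4 : 2 ∣ Fintype.card F ^ 2 := by
    rw [hn]
    exact dvd_pow (dvd_pow_self 2 n.2.ne') two_ne_zero
  have h5 : 0 < Fintype.card F ^ 2 := by positivity
  omega

/-- the Steinberg module has only coboundaries -/
theorem cob_St (hι : Function.Injective ι) (hs1 : (-1 : k) ^ (Fintype.card F - 1) = 1)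
    (c : Z1 (rb ι 2 hs1 le_rfl)) : ∃ v, c = cob _ v := by
  -- on the unipotent subgroup
  obtain ⟨v, hv⟩ := exists_line ι hι hs1 (fun y => (c.1 (u y) : F × F → k) (1, 0))
  have h1 : ∀ s, c.1 (u s) = rb ι 2 hs1 le_rfl (u s) v - v := by
    intro s
    apply ext_line ι hι
    intro y
    have h2 := c.2 (u y) (u s)
    rw [← u_add] at h2
    have h3 : (c.1 (u (y + s)) : F × F → k) (1, 0) = (c.1 (u y) : F × F → k) (1, 0) +
        fRep k F (u y) (c.1 (u s) : F × F → k) (1, 0) := congrFun (congrArg Subtype.val h2) (1, 0)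
    rw [fRep_u, one_mul, add_zero] at h3
    have h4 : ((rb ι 2 hs1 le_rfl (u s) v - v : Vb ι (Fintype.card F - 1)) : F × F → k) (1, y) =
        fRep k F (u s) (v : F × F → k) (1, y) - (v : F × F → k) (1, y) := rfl
    rw [h4, fRep_u, one_mul, hv, hv, add_comm s y, h3]
    abel
  obtain ⟨v', hv'⟩ := cob_of_res (rb ι 2 hs1 le_rfl) (UG F) index_UG (c - cob _ v).2 (by
    rintro _ ⟨s, rfl⟩
    show c.1 (u s) - (rb ι 2 hs1 le_rfl (u s) v - v) = 0
    rw [h1, sub_self])
  refine ⟨v + v', ?_⟩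
  rw [map_add]
  apply Subtype.ext
  funext g
  have h2 := hv' g
  have h3 : c.1 g - (cob (rb ι 2 hs1 le_rfl) v).1 g = (cob (rb ι 2 hs1 le_rfl) v').1 g := h2
  show c.1 g = (cob (rb ι 2 hs1 le_rfl) v).1 g + (cob (rb ι 2 hs1 le_rfl) v').1 g
  rw [← h3]
  abel

/-- the exponents occurring in `V_b`, `b < 64` -/
def Bn (b : ℕ) : Finset ℕ := (Finset.range (b + 1)).filter fun m => oc 6 b m = true

theorem Bf_eq {b : ℕ} (hb : b < 64) : Bf k b = Bn b := by
  unfold Bf Bn
  refine Finset.filter_congr fun m hm => ?_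
  have hm' := Finset.mem_range.1 hm
  rw [oc_spec 6 b m (by norm_num; omega) (by norm_num; omega)]
  by_cases h : oc 6 b m = true <;> simp [h]

/-- the bounds -/
def zb (b : ℕ) : ℕ := if b = 0 then 0 else (Bn b).card + (if isP b then 1 else 0)

/-- **`dim Z¹(SL₂(64), V_b) ≤ zb b`** -/
theorem finrank_Z1_rb (hq : Fintype.card F = 64) (hι : Function.Injective ι)
    (hs1 : (-1 : k) ^ (Fintype.card F - 1) = 1) {b : ℕ} (hb : b ≤ Fintype.card F - 1) :
    Module.finrank k (Z1 (rb ι 2 hs1 hb)) ≤ zb b := by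
  unfold zb
  rcases Nat.eq_zero_or_pos b with rfl | hb0
  · rw [if_pos rfl]
    have h1 : ∀ c : Z1 (rb ι 2 hs1 hb), c = 0 := Z1_triv _ (by omega) (rb_zero_triv ι hs1)
    have : Subsingleton (Z1 (rb ι 2 hs1 hb)) := ⟨fun x y => by rw [h1 x, h1 y]⟩
    rw [Module.finrank_zero_of_subsingleton]
  · rw [if_neg hb0.ne']
    rcases Nat.lt_or_ge b (Fintype.card F - 1) with hb' | hb'
    · have h1 := finrank_Z1_ZT (rb ι 2 hs1 hb) cast_N
      have h2 := finrank_ZT_le ι hq hι hs1 hb0 hb'
      rw [finrank_Vb ι 2 hι hs1 hb, Bf_eq (by omega)] at h1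
      omega
    · have hbe : b = Fintype.card F - 1 := by omega
      subst hbe
      have h1 : LinearMap.range (cob (rb ι 2 hs1 hb)) = ⊤ := by
        rw [eq_top_iff]
        intro c _
        obtain ⟨v, hv⟩ := cob_St ι hι hs1 c
        exact ⟨v, hv.symm⟩
      have h2 := LinearMap.finrank_range_le (cob (rb ι 2 hs1 hb))
      rw [h1, finrank_top, finrank_Vb ι 2 hι hs1 hb, Bf_eq (by omega)] at h2
      omega

end Cfsg.Agent.H179.SLC
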