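import Cfsg.Agent.H179.SLC.Coc
import Cfsg.Agent.H179.SLC.Elt

/-!
# `H¹(SL₂(q), V_b)`, `q` even: the linear relations (helper179)

`ZT` : the cocycles which vanish on the torus; they are determined by the value at `u 1`, whose coefficients satisfy linear
relations (`relK`).
-/

set_option autoImplicit false
set_option linter.unusedSectionVars false

namespace Cfsg.Agent.H179.SLC

open Matrix Cfsg.Agent.H943.SL2Rel Cfsg.Agent.H943.RepAdd Cfsg.Agent.H943.SL2Mod

section General

variable {k : Type*} [Field k] {F : Type*} [Field F] [Fintype F] {V : Type*} [AddCommGroup V] [Module k V]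
  (ρ : Representation k (SpecialLinearGroup (Fin 2) F) V)

/-- the cocycles which vanish on the torus -/
def ZT : Submodule k (Z1 ρ) where
  carrier := {c | ∀ a : Fˣ, c.1 (h a) = 0}
  zero_mem' := fun a => rfl
  add_mem' := fun {x y} hx hy a => by
    show x.1 (h a) + y.1 (h a) = 0
    rw [hx, hy, add_zero]
  smul_mem' := fun c x hx a => by
    show c • x.1 (h a) = 0
    rw [hx, smul_zero]

theorem exists_ZT (hN : ((Fintype.card F - 1 : ℕ) : k) ≠ 0) (c : Z1 ρ) : ∃ v : V, c - cob ρ v ∈ ZT ρ := by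
  have h1 : (fun a : Fˣ => c.1 (h a)) ∈ Z1 (ρ.comp hHom) := by
    intro a b
    show c.1 (h (a * b)) = c.1 (h a) + ρ (h a) (c.1 (h b))
    rw [h_mul, c.2]
  obtain ⟨v, hv⟩ := cob_of_res (ρ.comp hHom) (⊥ : Subgroup Fˣ) (by
    classical
    rw [Subgroup.index_bot, Nat.card_eq_fintype_card, Fintype.card_units]
    exact hN) h1 (by
    intro a ha
    rw [Subgroup.mem_bot] at ha
    show c.1 (h a) = 0
    rw [ha, h_one]
    exact Z1_one ρ c)
  refine ⟨v, fun a => ?_⟩
  show c.1 (h a) - (ρ (h a) v - v) = 0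
  exact sub_eq_zero.2 (hv a)

theorem finrank_Z1_ZT [FiniteDimensional k V] (hN : ((Fintype.card F - 1 : ℕ) : k) ≠ 0) :
    Module.finrank k (Z1 ρ) ≤ Module.finrank k V + Module.finrank k (ZT ρ) := by
  classical
  have : Finite (SpecialLinearGroup (Fin 2) F) := inferInstance
  have h1 : LinearMap.range (cob ρ) ⊔ ZT ρ = ⊤ := by
    rw [eq_top_iff]
    intro c _
    obtain ⟨v, hv⟩ := exists_ZT ρ hN c
    have h2 : c = cob ρ v + (c - cob ρ v) := by abel
    rw [h2]
    exact Submodule.add_mem_sup ⟨v, rfl⟩ hv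
  have h2 := Submodule.finrank_add_le_finrank_add_finrank (LinearMap.range (cob ρ)) (ZT ρ)
  rw [h1, finrank_top] at h2
  have h3 := LinearMap.finrank_range_le (cob ρ)
  omega

theorem ZT_u {c : Z1 ρ} (hc : c ∈ ZT ρ) (a : Fˣ) (t : F) : c.1 (u ((a : F) ^ 2 * t)) = ρ (h a) (c.1 (u t)) := by
  have h1 := c.2 (h a) (u t)
  have h2 := c.2 (u ((a : F) ^ 2 * t)) (h a)
  rw [← h_u, h1, hc a, map_zero, add_zero, zero_add] at h2
  exact h2.symm

theorem ZT_w {c : Z1 ρ} (hc : c ∈ ZT ρ) (a : Fˣ) : ρ (h a) (c.1 w) = c.1 w := by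
  have h1 := c.2 (h a) w
  have h2 := c.2 w (h a⁻¹)
  rw [← h_w, h1, hc a, hc a⁻¹, map_zero, add_zero, zero_add] at h2
  exact h2

variable [CharP F 2]

theorem ZT_eq_zero (hT : ∀ v : V, (∀ a : Fˣ, ρ (h a) v = v) → v = 0) {c : Z1 ρ} (hc : c ∈ ZT ρ)
    (h1 : c.1 (u 1) = 0) : c = 0 := by
  have hu : ∀ t : F, c.1 (u t) = 0 := by
    intro t
    by_cases ht : t = 0
    · rw [ht, u_zero]
      exact Z1_one ρ c
    · obtain ⟨a, ha⟩ := FiniteField.isSquare_of_char_two (F := F) (ringChar.eq_iff.2 inferInstance) t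
      have ha0 : a ≠ 0 := by
        rintro rfl
        exact ht (by rw [ha, mul_zero])
      have h2 := ZT_u ρ hc (Units.mk0 a ha0) 1
      rw [h1, map_zero, Units.val_mk0, mul_one, sq, ← ha] at h2
      exact h2
  apply Subtype.ext
  funext g
  show c.1 g = 0
  refine induct (P := fun g => c.1 g = 0) hu hc (hT _ (ZT_w ρ hc)) ?_ g
  intro a b ha hb
  show c.1 (a * b) = 0
  rw [c.2, ha, hb, map_zero, add_zero]

end General

/-- half of the weight -/
def ex (N b m : ℕ) : ℕ := (m + (N - 1) / 2 * b) % N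

section Vb

variable {k : Type*} [Field k] [CharP k 2] [DecidableEq k] {F : Type*} [Field F] [Fintype F] [DecidableEq F] [CharP F 2]
  (ι : F →+* k)

theorem odd_card : ¬ 2 ∣ Fintype.card F - 1 := by
  intro h
  obtain ⟨n, -, hn⟩ := FiniteField.card F 2
  have h1 : 2 ∣ Fintype.card F := by
    rw [hn]
    exact dvd_pow_self 2 n.2.ne'
  have h2 : 0 < Fintype.card F := Fintype.card_pos
  omega

theorem pow_ex (a : Fˣ) {b m : ℕ} (hm : m ≤ b) :
    ι a ^ m * (ι a)⁻¹ ^ (b - m) = ι ((a : F) ^ 2) ^ ex (Fintype.card F - 1) b m := by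
  have hodd := odd_card (F := F)
  have hq : 1 < Fintype.card F := Fintype.one_lt_card
  generalize hN : Fintype.card F - 1 = N at hodd
  have ha : (a : F) ≠ 0 := a.ne_zero
  have hι0 : ι a ≠ 0 := (map_ne_zero ι).2 ha
  have hpN : ι a ^ N = 1 := by
    rw [← map_pow, ← hN, FiniteField.pow_card_sub_one_eq_one _ ha, map_one]
  have hmod : ∀ x : ℕ, ι a ^ x = ι a ^ (x % N) := by
    intro x
    conv_lhs => rw [← Nat.div_add_mod x N, pow_add, pow_mul, hpN, one_pow, one_mul]
  have h1 : ι ((a : F) ^ 2) ^ ex N b m = ι a ^ (2 * ex N b m) := by rw [map_pow, pow_mul]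
  have h2 : (2 * ex N b m) % N = (2 * m + (N - 1) * b) % N := by
    unfold ex
    have h3 : 2 * m + (N - 1) * b = 2 * (m + (N - 1) / 2 * b) := by
      have h4 : N - 1 = 2 * ((N - 1) / 2) := by omega
      rw [mul_add, ← mul_assoc, ← h4]
    rw [h3, Nat.mul_mod, Nat.mod_mod, ← Nat.mul_mod]
  rw [h1, hmod (2 * ex N b m), h2, ← hmod, pow_add, pow_mul _ (N - 1)]
  have h5 : ι a ^ (N - 1) = (ι a)⁻¹ := by
    apply eq_inv_of_mul_eq_one_left
    rw [← pow_succ, Nat.sub_add_cancel (by omega), hpN]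
  rw [h5]
  obtain ⟨j, rfl⟩ := Nat.exists_eq_add_of_le hm
  rw [Nat.add_sub_cancel_left, pow_add (ι a)⁻¹ m j, mul_comm 2 m, pow_mul, sq, ← mul_assoc]
  congr 1
  rw [mul_assoc, ← mul_pow, mul_inv_cancel₀ hι0, one_pow, mul_one]

theorem ex_ne_zero {b m : ℕ} (hb0 : 0 < b) (hb : b < Fintype.card F - 1) (hm : m ∈ Bb k b) :
    ex (Fintype.card F - 1) b m ≠ 0 := by
  have hodd := odd_card (F := F)
  have hq : 1 < Fintype.card F := Fintype.one_lt_card
  generalize Fintype.card F - 1 = N at *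
  intro h0
  have h1 : N ∣ m + (N - 1) / 2 * b := Nat.dvd_of_mod_eq_zero h0
  have h4 : N - 1 = 2 * ((N - 1) / 2) := by omega
  have h2 : (N : ℤ) ∣ 2 * m - b := by
    obtain ⟨c, hc⟩ := h1
    refine ⟨2 * c - b, ?_⟩
    have h5 : (2 : ℤ) * ((N - 1) / 2 : ℕ) = N - 1 := by omega
    have h6 : (m : ℤ) + ((N - 1) / 2 : ℕ) * b = N * c := by exact_mod_cast hc
    linear_combination 2 * h6 - b * h5
  have h3 : (2 * m : ℤ) - b = 0 := by
    apply Int.eq_zero_of_abs_lt_dvd h2
    have := hm.1
    rw [abs_lt]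
    constructor <;> omega
  have h5 : b = 2 * m := by omega
  apply hm.2
  rw [h5, ← Nat.centralBinom_eq_two_mul_choose, CharP.cast_eq_zero_iff k 2]
  exact Nat.two_dvd_centralBinom_of_one_le (by omega)

theorem u1_mon {b m : ℕ} (hm : m ≤ b) (y : F) : mon ι b m (1, 1 + y) =
    ∑ m' ∈ Finset.range (b + 1), ((b - m).choose (b - m') : k) * mon ι b m' (1, y) := by
  have h1 : ∀ m', mon ι b m' (1, y) = ι y ^ (b - m') := by
    intro m'
    unfold mon
    rw [map_one, one_pow, one_mul]
  have h2 : mon ι b m (1, 1 + y) = (ι y + 1) ^ (b - m) := by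
    unfold mon
    rw [map_one, one_pow, one_mul, map_add, map_one, add_comm]
  rw [h2, ← Finset.sum_range_reflect, add_pow]
  have h3 : ∀ j ∈ Finset.range (b + 1), ((b - m).choose (b - (b + 1 - 1 - j)) : k) * mon ι b (b + 1 - 1 - j) (1, y) =
      ι y ^ j * 1 ^ (b - m - j) * ((b - m).choose j : k) := by
    intro j hj
    have hj' := Finset.mem_range.1 hj
    rw [h1, show b - (b + 1 - 1 - j) = j by omega, one_pow, mul_one, mul_comm]
  rw [Finset.sum_congr rfl h3]
  refine Finset.sum_subset (Finset.range_subset_range.2 (by omega)) fun j _ hj => ?_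
  rw [Nat.choose_eq_zero_of_lt (by
    rw [Finset.mem_range] at hj
    omega), Nat.cast_zero, mul_zero]

/-- **the linear relations** -/
theorem relK (hι : Function.Injective ι) (hs1 : (-1 : k) ^ (Fintype.card F - 1) = 1) {b : ℕ} (hb0 : 0 < b)
    (hb : b < Fintype.card F - 1) {c : Z1 (rb ι 2 hs1 hb.le)} (hc : c ∈ ZT (rb ι 2 hs1 hb.le)) :
    ∃ γ : ℕ → k, (c.1 (u 1) : F × F → k) = ∑ m ∈ Finset.range (b + 1), γ m • mon ι b m ∧
      (∀ m, (b.choose m : k) = 0 → γ m = 0) ∧
      ∀ m' ≤ b, ∀ j, j < Fintype.card F - 1 → γ m' * ((ex (Fintype.card F - 1) b m').choose j : k) =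
        (if j = 0 then γ m' else 0) +
        ∑ m ∈ Finset.range (b + 1), if ex (Fintype.card F - 1) b m = j then γ m * ((b - m).choose (b - m') : k) else 0 := by
  have hq : 1 < Fintype.card F := Fintype.one_lt_card
  set N := Fintype.card F - 1 with hN
  have hN0 : 0 < N := by omega
  have hexN : ∀ m, ex N b m < N := fun m => Nat.mod_lt _ hN0
  obtain ⟨e, he⟩ := exists_coord ι 2 hι hs1 hb.le
  obtain ⟨x, hx⟩ := e.surjective (c.1 (u 1))
  let γ : ℕ → k := fun m => if hm : m ∈ Bf k b then x ⟨m, hm⟩ else 0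
  have hγ0 : ∀ m, (b.choose m : k) = 0 → γ m = 0 := by
    intro m hm
    apply dif_neg
    intro h
    exact (mem_Bf.1 h).2 hm
  have hγm : ∀ m, γ m ≠ 0 → m ∈ Bb k b := by
    intro m hm
    by_contra hcon
    exact hm (dif_neg fun h => hcon (mem_Bf.1 h))
  have hsum : (c.1 (u 1) : F × F → k) = ∑ m ∈ Finset.range (b + 1), γ m • mon ι b m := by
    have h3 : ∀ m : Bf k b, x m • mon ι b m = γ m • mon ι b m := by
      intro m
      have h5 : γ m = x m := dif_pos m.2
      rw [h5]
    rw [← hx, he, Finset.sum_congr rfl fun m _ => h3 m, Finset.sum_coe_sort (Bf k b) (fun m => γ m • mon ι b m)]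
    refine Finset.sum_subset (Finset.filter_subset (fun m => (b.choose m : k) ≠ 0) (Finset.range (b + 1))) fun m _ hm => ?_
    have h4 : γ m = 0 := dif_neg hm
    rw [h4, zero_smul]
  -- the value at `u s`
  have hval : ∀ s : F, (c.1 (u s) : F × F → k) = ∑ m ∈ Finset.range (b + 1), (γ m * ι s ^ ex N b m) • mon ι b m := by
    intro s
    by_cases hs : s = 0
    · rw [hs, u_zero, Z1_one _ c]
      show (0 : F × F → k) = _
      symm
      apply Finset.sum_eq_zero
      intro m _
      by_cases h0 : γ m = 0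
      · rw [h0, zero_mul, zero_smul]
      · rw [map_zero, zero_pow (ex_ne_zero (k := k) hb0 hb (hγm m h0)), mul_zero, zero_smul]
    · obtain ⟨a, ha⟩ := FiniteField.isSquare_of_char_two (F := F) (ringChar.eq_iff.2 inferInstance) s
      have ha0 : a ≠ 0 := by
        rintro rfl
        exact hs (by rw [ha, mul_zero])
      have h2 := ZT_u _ hc (Units.mk0 a ha0) 1
      rw [Units.val_mk0, mul_one, sq, ← ha] at h2
      rw [h2]
      show fRep k F (h (Units.mk0 a ha0)) (c.1 (u 1) : F × F → k) = _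
      rw [hsum, map_sum]
      refine Finset.sum_congr rfl fun m hm => ?_
      rw [map_smul, h_mon, smul_smul, pow_ex ι _ (Nat.lt_succ_iff.1 (Finset.mem_range.1 hm)), Units.val_mk0, sq, ← ha]
  -- the cocycle relation
  have hcoc : ∀ t y : F, ∑ m ∈ Finset.range (b + 1), (γ m * ι (1 + t) ^ ex N b m) * mon ι b m (1, y) =
      ∑ m ∈ Finset.range (b + 1), γ m * mon ι b m (1, y) +
      ∑ m ∈ Finset.range (b + 1), (γ m * ι t ^ ex N b m) * mon ι b m (1, 1 + y) := by
    intro t y
    have h1 := c.2 (u 1) (u t)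
    rw [← u_add] at h1
    have h2 := congrFun (congrArg Subtype.val h1) ((1 : F), y)
    have h3 : (c.1 (u (1 + t)) : F × F → k) (1, y) = (c.1 (u 1) : F × F → k) (1, y) +
        (fRep k F (u 1) (c.1 (u t) : F × F → k)) (1, y) := h2
    rw [fRep_u, hval, hval t, hsum, Finset.sum_apply, Finset.sum_apply, Finset.sum_apply, mul_one] at h3
    exact h3
  refine ⟨γ, hsum, hγ0, fun m' hm' => ?_⟩
  -- the coefficients
  have hco : ∀ t : F, γ m' * ι (1 + t) ^ ex N b m' = γ m' +
      ∑ m ∈ Finset.range (b + 1), γ m * ι t ^ ex N b m * ((b - m).choose (b - m') : k) := by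
    intro t
    have h1 := mon_indep ι hι (b := b) (by omega) (fun m' => γ m' * ι (1 + t) ^ ex N b m' - (γ m' +
      ∑ m ∈ Finset.range (b + 1), γ m * ι t ^ ex N b m * ((b - m).choose (b - m') : k))) (by
      intro y
      have h2 : ∀ m ∈ Finset.range (b + 1), (γ m * ι t ^ ex N b m) * mon ι b m (1, 1 + y) =
          ∑ m' ∈ Finset.range (b + 1), γ m * ι t ^ ex N b m * ((b - m).choose (b - m') : k) * mon ι b m' (1, y) := by
        intro m hm
        rw [u1_mon ι (Nat.lt_succ_iff.1 (Finset.mem_range.1 hm)), Finset.mul_sum]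
        exact Finset.sum_congr rfl fun _ _ => (mul_assoc _ _ _).symm
      have h3 := hcoc t y
      rw [Finset.sum_congr rfl h2, Finset.sum_comm] at h3
      have h4 : ∀ m ∈ Finset.range (b + 1), (γ m * ι (1 + t) ^ ex N b m - (γ m +
          ∑ m_1 ∈ Finset.range (b + 1), γ m_1 * ι t ^ ex N b m_1 * ((b - m_1).choose (b - m) : k))) * mon ι b m (1, y) =
          (γ m * ι (1 + t) ^ ex N b m) * mon ι b m (1, y) - (γ m * mon ι b m (1, y) +
          ∑ m_1 ∈ Finset.range (b + 1), γ m_1 * ι t ^ ex N b m_1 * ((b - m_1).choose (b - m) : k) * mon ι b m (1, y)) := by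
        intro m _
        rw [sub_mul, add_mul, Finset.sum_mul]
      rw [Finset.sum_congr rfl h4, Finset.sum_sub_distrib, Finset.sum_add_distrib, h3, sub_self]) m' hm'
    exact sub_eq_zero.1 h1
  intro j hj
  have h1 := coeff_zero ι hι (n := N - 1) (by omega) (fun j => γ m' * ((ex N b m').choose j : k) -
      ((if j = 0 then γ m' else 0) +
        ∑ m ∈ Finset.range (b + 1), if ex N b m = j then γ m * ((b - m).choose (b - m') : k) else 0)) (by
    intro t
    rw [Nat.sub_add_cancel hN0]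
    have h2 : ∑ j ∈ Finset.range N, γ m' * ((ex N b m').choose j : k) * ι t ^ j = γ m' * ι (1 + t) ^ ex N b m' := by
      rw [map_add, map_one, add_comm (1 : k), add_pow, Finset.mul_sum]
      symm
      refine (Finset.sum_subset (Finset.range_subset_range.2 (Nat.succ_le_of_lt (hexN m'))) fun j _ hj => ?_).trans
        (Finset.sum_congr rfl fun j _ => ?_)
      · rw [Nat.choose_eq_zero_of_lt (by
          rw [Finset.mem_range] at hj
          omega), Nat.cast_zero, mul_zero, mul_zero]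
      · rw [one_pow, mul_one]
        ring
    have h3 : ∑ j ∈ Finset.range N, (if j = 0 then γ m' else 0) * ι t ^ j = γ m' := by
      rw [Finset.sum_eq_single 0]
      · rw [if_pos rfl, pow_zero, mul_one]
      · intro j _ hj
        rw [if_neg hj, zero_mul]
      · intro h
        exact absurd (Finset.mem_range.2 hN0) h
    have h4 : ∑ j ∈ Finset.range N, (∑ m ∈ Finset.range (b + 1), if ex N b m = j then
        γ m * ((b - m).choose (b - m') : k) else 0) * ι t ^ j =
        ∑ m ∈ Finset.range (b + 1), γ m * ι t ^ ex N b m * ((b - m).choose (b - m') : k) := by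
      rw [Finset.sum_congr rfl fun j _ => Finset.sum_mul _ _ _, Finset.sum_comm]
      refine Finset.sum_congr rfl fun m _ => ?_
      rw [Finset.sum_eq_single (ex N b m)]
      · rw [if_pos rfl]
        ring
      · intro j _ hj
        rw [if_neg (Ne.symm hj), zero_mul]
      · intro h
        exact absurd (Finset.mem_range.2 (hexN m)) h
    have h5 : ∀ j ∈ Finset.range N, (γ m' * ((ex N b m').choose j : k) - ((if j = 0 then γ m' else 0) +
        ∑ m ∈ Finset.range (b + 1), if ex N b m = j then γ m * ((b - m).choose (b - m') : k) else 0)) * ι t ^ j =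
        γ m' * ((ex N b m').choose j : k) * ι t ^ j - ((if j = 0 then γ m' else 0) * ι t ^ j +
        (∑ m ∈ Finset.range (b + 1), if ex N b m = j then γ m * ((b - m).choose (b - m') : k) else 0) * ι t ^ j) := by
      intro j _
      rw [sub_mul, add_mul]
    rw [Finset.sum_congr rfl h5, Finset.sum_sub_distrib, Finset.sum_add_distrib, h2, h3, h4, hco t, sub_self])
    j (by omega)
  exact sub_eq_zero.1 h1

end Vb

end Cfsg.Agent.H179.SLC
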