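import Cfsg.Agent.H179.SLC.HK

/-!
# `H¹(SL₂(64), V_b)` (helper179)

`finrank_Z1_rb` : `dim Z¹(SL₂(64), V_b) ≤ dim V_b + δ`, `δ = 1` if `b` is a power of 2 and `δ = 0` otherwise (`0 < b < 63`).
-/

set_option autoImplicit false
set_option linter.unusedSectionVars false

namespace Cfsg.Agent.H179.SLC

open Matrix Cfsg.Agent.H943.SL2Rel Cfsg.Agent.H943.RepAdd Cfsg.Agent.H943.SL2Mod

/-- parity of the binomial coefficients -/
def oc : ℕ → ℕ → ℕ → Bool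
  | 0, _, _ => true
  | n + 1, b, m => Nat.ble (m % 2) (b % 2) && oc n (b / 2) (m / 2)

theorem oc_spec {k : Type*} [Field k] [CharP k 2] (n : ℕ) : ∀ b m : ℕ, b < 2 ^ n → m < 2 ^ n →
    ((b.choose m : ℕ) : k) = if oc n b m then 1 else 0 := by
  induction n with
  | zero =>
    intro b m hb hm
    have h1 : b = 0 := by omega
    have h2 : m = 0 := by omega
    subst h1 h2
    simp [oc]
  | succ n ih =>
    intro b m hb hm
    have hb' : b / 2 < 2 ^ n := by omega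
    have hm' : m / 2 < 2 ^ n := by omega
    rw [lucas2, Nat.cast_mul, ih _ _ hb' hm']
    have h3 : oc (n + 1) b m = (Nat.ble (m % 2) (b % 2) && oc n (b / 2) (m / 2)) := rfl
    rw [h3]
    rcases Nat.mod_two_eq_zero_or_one b with h1 | h1 <;> rcases Nat.mod_two_eq_zero_or_one m with h2 | h2 <;>
      simp [h1, h2]

/-- the coefficient of `γ x` in the relation `(m', j)` -/
def cf (b m' j x : ℕ) : Bool :=
  (decide (x = m') && oc 6 (ex 63 b m') j) ^^ (decide (ex 63 b x = j) && oc 6 (b - x) (b - m'))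

/-- the check of a certificate; `ex0` : the exponent which is not eliminated -/
def chk (b ex0 : ℕ) : List (ℕ × ℕ × ℕ) → List ℕ → Bool
  | [], Z => (List.range (b + 1)).all fun x => x == ex0 || !oc 6 b x || Z.contains x
  | (m', j, x) :: l, Z => Nat.ble m' b && Nat.ble 1 j && Nat.ble j 62 && Nat.ble x b && cf b m' j x &&
      ((List.range (b + 1)).all fun y => y == x || !cf b m' j y || !oc 6 b y || Z.contains y) && chk b ex0 l (x :: Z)

section Sound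

variable {k : Type*} [Field k] [CharP k 2]

/-- the relations -/
def Rel (b : ℕ) (γ : ℕ → k) : Prop := (∀ m, (b.choose m : k) = 0 → γ m = 0) ∧
  ∀ m' ≤ b, ∀ j, j < 63 → γ m' * ((ex 63 b m').choose j : k) = (if j = 0 then γ m' else 0) +
    ∑ m ∈ Finset.range (b + 1), if ex 63 b m = j then γ m * ((b - m).choose (b - m') : k) else 0

theorem bool_aux (A B : Prop) [Decidable A] [Decidable B] (P Q : Bool) (g : k) :
    (if ((decide A && P) ^^ (decide B && Q)) = true then g else 0) =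
      (if A then g * (if P = true then 1 else 0) else 0) - (if B then g * (if Q = true then 1 else 0) else 0) := by
  have hneg : ∀ a : k, -a = a := fun a => CharTwo.neg_eq a
  by_cases hA : A <;> by_cases hB : B <;> cases P <;> cases Q <;> simp [hA, hB, hneg]

theorem Rel.sum_cf {b : ℕ} (hb : b < 63) {γ : ℕ → k} (h : Rel b γ) {m' j : ℕ} (hm' : m' ≤ b) (hj1 : 1 ≤ j) (hj : j < 63) :
    ∑ x ∈ Finset.range (b + 1), (if cf b m' j x then γ x else 0) = 0 := by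
  have h1 := h.2 m' hm' j hj
  rw [if_neg (by omega), zero_add] at h1
  have h2 : γ m' * ((ex 63 b m').choose j : k) =
      ∑ x ∈ Finset.range (b + 1), if x = m' then γ x * ((ex 63 b m').choose j : k) else 0 := by
    rw [Finset.sum_ite_eq' , if_pos (Finset.mem_range.2 (by omega))]
  rw [h2] at h1
  have hex : ex 63 b m' < 64 := by
    have : ex 63 b m' < 63 := Nat.mod_lt _ (by norm_num)
    omega
  have h3 : ∀ x ∈ Finset.range (b + 1), (if cf b m' j x then γ x else 0) =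
      (if x = m' then γ x * ((ex 63 b m').choose j : k) else 0) -
      (if ex 63 b x = j then γ x * ((b - x).choose (b - m') : k) else 0) := by
    intro x hx
    have hx' := Finset.mem_range.1 hx
    have e1 := oc_spec (k := k) 6 (ex 63 b m') j (by norm_num; omega) (by norm_num; omega)
    have e2 := oc_spec (k := k) 6 (b - x) (b - m') (by norm_num; omega) (by norm_num; omega)
    rw [e1, e2]
    unfold cf
    exact bool_aux _ _ _ _ _
  rw [Finset.sum_congr rfl h3, Finset.sum_sub_distrib, h1, sub_self]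

theorem chk_sound {b ex0 : ℕ} (hb : b < 63) {γ : ℕ → k} (h : Rel b γ) (l : List (ℕ × ℕ × ℕ)) :
    ∀ Z : List ℕ, (∀ x ∈ Z, γ x = 0) → chk b ex0 l Z = true → ∀ x ≤ b, x ≠ ex0 → γ x = 0 := by
  have hoc : ∀ y ≤ b, oc 6 b y = false → γ y = 0 := by
    intro y hy h0
    apply h.1
    rw [oc_spec 6 b y (by norm_num; omega) (by norm_num; omega), h0]
    simp
  induction l with
  | nil =>
    intro Z hZ hc x hx hne
    unfold chk at hc
    rw [List.all_eq_true] at hc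
    have h1 := hc x (List.mem_range.2 (by omega))
    simp only [Bool.or_eq_true, beq_iff_eq, Bool.not_eq_true', List.contains_iff_mem] at h1
    rcases h1 with (h1 | h1) | h1
    · exact absurd h1 hne
    · exact hoc x hx h1
    · exact hZ x h1
  | cons s l ih =>
    obtain ⟨m', j, x⟩ := s
    intro Z hZ hc
    unfold chk at hc
    simp only [Bool.and_eq_true, Nat.ble_eq] at hc
    obtain ⟨⟨⟨⟨⟨⟨hm', hj1⟩, hj⟩, hx⟩, hcf⟩, hall⟩, hrest⟩ := hc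
    refine ih (x :: Z) ?_ hrest
    intro y hy
    rcases List.mem_cons.1 hy with rfl | hy
    · have h1 := h.sum_cf hb hm' hj1 (by omega)
      rw [Finset.sum_eq_single y] at h1
      · rwa [if_pos hcf] at h1
      · intro z hz hzy
        by_cases hcz : cf b m' j z = true
        · rw [if_pos hcz]
          have hz' := Finset.mem_range.1 hz
          have h2 := List.all_eq_true.1 hall z (List.mem_range.2 hz')
          simp only [Bool.or_eq_true, beq_iff_eq, Bool.not_eq_true', List.contains_iff_mem] at h2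
          rcases h2 with ((h2 | h2) | h2) | h2
          · exact absurd h2 hzy
          · rw [hcz] at h2
            exact absurd h2 (by decide)
          · exact hoc z (by omega) h2
          · exact hZ z h2
        · rw [if_neg hcz]
      · intro h0
        exact absurd (Finset.mem_range.2 (by omega)) h0
    · exact hZ y hy

end Sound

def certs : List (ℕ × List (ℕ × ℕ × ℕ)) := [
  (1, [(0, 1, 0)]),
  (2, [(0, 2, 0)]),
  (3, [(0, 2, 0), (1, 1, 1), (3, 1, 3), (3, 32, 2)]),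
  (4, [(0, 1, 0)]),
  (5, [(0, 1, 0), (1, 2, 1), (4, 1, 4), (5, 2, 5)]),
  (6, [(0, 4, 0), (2, 2, 2), (6, 2, 6), (6, 1, 4)]),
  (7, [(0, 4, 0), (1, 1, 1), (2, 2, 2), (3, 1, 3), (5, 1, 5), (5, 32, 4), (6, 2, 6), (7, 1, 7)]),
  (8, [(0, 1, 0)]),
  (9, [(0, 1, 0), (1, 4, 1), (8, 1, 8), (9, 4, 9)]),
  (10, [(0, 2, 0), (2, 4, 2), (8, 1, 8), (10, 1, 10)]),
  (11, [(0, 2, 0), (1, 1, 1), (2, 4, 2), (3, 1, 3), (8, 2, 8), (9, 1, 9), (10, 4, 10), (11, 1, 11)]),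
  (12, [(0, 1, 0), (4, 1, 4), (12, 4, 12), (12, 2, 8)]),
  (13, [(0, 1, 0), (1, 2, 1), (4, 1, 4), (5, 2, 5), (8, 1, 8), (9, 2, 9), (12, 1, 12), (13, 2, 13)]),
  (14, [(0, 8, 0), (2, 2, 2), (4, 4, 4), (6, 2, 6), (10, 2, 10), (12, 4, 12), (14, 2, 14), (10, 1, 8)]),
  (15, [(0, 8, 0), (1, 1, 1), (2, 2, 2), (3, 1, 3), (4, 4, 4), (5, 1, 5), (6, 2, 6), (7, 1, 7), (9, 1, 9), (9, 32, 8), (10, 2, 10), (11, 1, 11), (12, 4, 12), (13, 1, 13), (14, 2, 14), (15, 1, 15)]),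
  (16, [(0, 1, 0)]),
  (17, [(0, 1, 0), (1, 8, 1), (16, 1, 16), (17, 8, 17)]),
  (18, [(0, 2, 0), (2, 8, 2), (16, 1, 16), (18, 1, 18)]),
  (19, [(0, 2, 0), (1, 1, 1), (2, 8, 2), (3, 1, 3), (16, 2, 16), (17, 1, 17), (18, 8, 18), (19, 1, 19)]),
  (20, [(0, 1, 0), (4, 1, 4), (16, 2, 16), (20, 2, 20)]),
  (21, [(0, 1, 0), (1, 2, 1), (4, 1, 4), (5, 2, 5), (16, 1, 16), (17, 2, 17), (20, 1, 20), (21, 2, 21)]),
  (22, [(0, 4, 0), (2, 2, 2), (4, 8, 4), (6, 2, 6), (16, 1, 16), (18, 1, 18), (20, 1, 20), (22, 1, 22)]),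
  (23, [(0, 4, 0), (1, 1, 1), (2, 2, 2), (3, 1, 3), (4, 8, 4), (5, 1, 5), (6, 2, 6), (7, 1, 7), (16, 4, 16), (17, 1, 17), (18, 2, 18), (19, 1, 19), (20, 8, 20), (21, 1, 21), (22, 2, 22), (23, 1, 23)]),
  (24, [(0, 1, 0), (8, 1, 8), (24, 8, 24), (24, 4, 16)]),
  (25, [(0, 1, 0), (1, 4, 1), (8, 1, 8), (9, 4, 9), (16, 1, 16), (17, 4, 17), (24, 1, 24), (25, 4, 25)]),
  (26, [(0, 2, 0), (2, 4, 2), (8, 2, 8), (10, 4, 10), (16, 1, 16), (18, 1, 18), (24, 1, 24), (26, 1, 26)]),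
  (27, [(0, 2, 0), (1, 1, 1), (2, 4, 2), (3, 1, 3), (8, 2, 8), (9, 1, 9), (10, 4, 10), (11, 1, 11), (16, 2, 16), (17, 1, 17), (18, 4, 18), (19, 1, 19), (24, 2, 24), (25, 1, 25), (26, 4, 26), (27, 1, 27)]),
  (28, [(0, 1, 0), (4, 1, 4), (8, 1, 8), (12, 1, 12), (20, 4, 20), (24, 8, 24), (28, 4, 28), (20, 2, 16)]),
  (29, [(0, 1, 0), (1, 2, 1), (4, 1, 4), (5, 2, 5), (8, 1, 8), (9, 2, 9), (12, 1, 12), (13, 2, 13), (16, 1, 16), (17, 2, 17), (20, 1, 20), (21, 2, 21), (24, 1, 24), (25, 2, 25), (28, 1, 28), (29, 2, 29)]),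
  (30, [(0, 16, 0), (2, 2, 2), (4, 4, 4), (6, 2, 6), (8, 8, 8), (10, 2, 10), (12, 4, 12), (14, 2, 14), (18, 2, 18), (20, 4, 20), (22, 2, 22), (24, 8, 24), (26, 2, 26), (28, 4, 28), (30, 2, 30), (18, 1, 16)]),
  (31, [(1, 1, 1), (1, 16, 0), (2, 2, 2), (3, 1, 3), (4, 4, 4), (5, 1, 5), (6, 2, 6), (7, 1, 7), (8, 8, 8), (9, 1, 9), (10, 2, 10), (11, 1, 11), (12, 4, 12), (13, 1, 13), (14, 2, 14), (15, 1, 15), (17, 1, 17), (17, 32, 16), (18, 2, 18), (19, 1, 19), (20, 4, 20), (21, 1, 21), (22, 2, 22), (23, 1, 23), (24, 8, 24), (25, 1, 25), (26, 2, 26), (27, 1, 27), (28, 4, 28), (29, 1, 29), (30, 2, 30), (31, 1, 31)]),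
  (32, [(0, 1, 0)]),
  (33, [(0, 1, 0), (32, 1, 32), (33, 32, 33), (33, 16, 1)]),
  (34, [(0, 2, 0), (2, 16, 2), (32, 1, 32), (34, 1, 34)]),
  (35, [(0, 2, 0), (1, 1, 1), (3, 1, 3), (3, 16, 2), (32, 2, 32), (33, 1, 33), (34, 16, 34), (35, 1, 35)]),
  (36, [(0, 1, 0), (4, 1, 4), (32, 2, 32), (36, 2, 36)]),
  (37, [(0, 1, 0), (1, 2, 1), (4, 1, 4), (5, 2, 5), (32, 1, 32), (33, 2, 33), (36, 1, 36), (37, 2, 37)]),
  (38, [(0, 4, 0), (2, 2, 2), (4, 16, 4), (6, 2, 6), (32, 1, 32), (34, 1, 34), (36, 1, 36), (38, 1, 38)]),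
  (39, [(0, 4, 0), (1, 1, 1), (2, 2, 2), (3, 1, 3), (5, 1, 5), (5, 16, 4), (6, 2, 6), (7, 1, 7), (32, 4, 32), (33, 1, 33), (34, 2, 34), (35, 1, 35), (36, 16, 36), (37, 1, 37), (38, 2, 38), (39, 1, 39)]),
  (40, [(0, 1, 0), (8, 1, 8), (32, 4, 32), (40, 4, 40)]),
  (41, [(0, 1, 0), (1, 4, 1), (8, 1, 8), (9, 4, 9), (32, 1, 32), (33, 4, 33), (40, 1, 40), (41, 4, 41)]),
  (42, [(0, 2, 0), (2, 4, 2), (8, 2, 8), (10, 4, 10), (32, 1, 32), (34, 1, 34), (40, 1, 40), (42, 1, 42)]),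
  (43, [(0, 2, 0), (1, 1, 1), (2, 4, 2), (3, 1, 3), (8, 2, 8), (9, 1, 9), (10, 4, 10), (11, 1, 11), (32, 2, 32), (33, 1, 33), (34, 4, 34), (35, 1, 35), (40, 2, 40), (41, 1, 41), (42, 4, 42), (43, 1, 43)]),
  (44, [(0, 1, 0), (4, 1, 4), (8, 1, 8), (12, 1, 12), (32, 2, 32), (36, 2, 36), (40, 2, 40), (44, 2, 44)]),
  (45, [(0, 1, 0), (1, 2, 1), (4, 1, 4), (5, 2, 5), (8, 1, 8), (9, 2, 9), (12, 1, 12), (13, 2, 13), (32, 1, 32), (33, 2, 33), (36, 1, 36), (37, 2, 37), (40, 1, 40), (41, 2, 41), (44, 1, 44), (45, 2, 45)]),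
  (46, [(0, 8, 0), (2, 2, 2), (4, 4, 4), (6, 2, 6), (8, 16, 8), (10, 2, 10), (12, 4, 12), (14, 2, 14), (32, 1, 32), (34, 1, 34), (36, 1, 36), (38, 1, 38), (40, 1, 40), (42, 1, 42), (44, 1, 44), (46, 1, 46)]),
  (47, [(1, 1, 1), (1, 8, 0), (2, 2, 2), (3, 1, 3), (4, 4, 4), (5, 1, 5), (6, 2, 6), (7, 1, 7), (9, 1, 9), (9, 16, 8), (10, 2, 10), (11, 1, 11), (12, 4, 12), (13, 1, 13), (14, 2, 14), (15, 1, 15), (32, 8, 32), (33, 1, 33), (34, 2, 34), (35, 1, 35), (36, 4, 36), (37, 1, 37), (38, 2, 38), (39, 1, 39), (40, 16, 40), (41, 1, 41), (42, 2, 42), (43, 1, 43), (44, 4, 44), (45, 1, 45), (46, 2, 46), (47, 1, 47)]),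
  (48, [(0, 1, 0), (16, 1, 16), (48, 16, 48), (48, 8, 32)]),
  (49, [(0, 1, 0), (16, 1, 16), (17, 16, 17), (32, 1, 32), (33, 32, 33), (48, 1, 48), (49, 16, 49), (17, 8, 1)]),
  (50, [(0, 2, 0), (2, 8, 2), (16, 2, 16), (18, 8, 18), (32, 1, 32), (34, 1, 34), (48, 1, 48), (50, 1, 50)]),
  (51, [(0, 2, 0), (1, 1, 1), (3, 1, 3), (3, 8, 2), (16, 2, 16), (17, 1, 17), (18, 8, 18), (19, 1, 19), (32, 2, 32), (33, 1, 33), (34, 8, 34), (35, 1, 35), (48, 2, 48), (49, 1, 49), (50, 8, 50), (51, 1, 51)]),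
  (52, [(0, 1, 0), (4, 1, 4), (16, 1, 16), (20, 1, 20), (32, 2, 32), (36, 2, 36), (48, 2, 48), (52, 2, 52)]),
  (53, [(0, 1, 0), (1, 2, 1), (4, 1, 4), (5, 2, 5), (16, 1, 16), (17, 2, 17), (20, 1, 20), (21, 2, 21), (32, 1, 32), (33, 2, 33), (36, 1, 36), (37, 2, 37), (48, 1, 48), (49, 2, 49), (52, 1, 52), (53, 2, 53)]),
  (54, [(0, 4, 0), (2, 2, 2), (4, 8, 4), (6, 2, 6), (16, 4, 16), (18, 2, 18), (20, 8, 20), (22, 2, 22), (32, 1, 32), (34, 1, 34), (36, 1, 36), (38, 1, 38), (48, 1, 48), (50, 1, 50), (52, 1, 52), (54, 1, 54)]),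
  (55, [(1, 1, 1), (1, 4, 0), (2, 2, 2), (3, 1, 3), (5, 1, 5), (5, 8, 4), (6, 2, 6), (7, 1, 7), (16, 4, 16), (17, 1, 17), (18, 2, 18), (19, 1, 19), (20, 8, 20), (21, 1, 21), (22, 2, 22), (23, 1, 23), (32, 4, 32), (33, 1, 33), (34, 2, 34), (35, 1, 35), (36, 8, 36), (37, 1, 37), (38, 2, 38), (39, 1, 39), (48, 4, 48), (49, 1, 49), (50, 2, 50), (51, 1, 51), (52, 8, 52), (53, 1, 53), (54, 2, 54), (55, 1, 55)]),
  (56, [(0, 1, 0), (8, 1, 8), (16, 1, 16), (24, 1, 24), (40, 8, 40), (48, 16, 48), (56, 8, 56), (40, 4, 32)]),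
  (57, [(0, 1, 0), (8, 1, 8), (9, 8, 9), (16, 1, 16), (17, 16, 17), (24, 1, 24), (25, 8, 25), (32, 1, 32), (33, 32, 33), (40, 1, 40), (41, 8, 41), (48, 1, 48), (49, 16, 49), (56, 1, 56), (57, 8, 57), (9, 4, 1)]),
  (58, [(0, 2, 0), (2, 4, 2), (8, 2, 8), (10, 4, 10), (16, 2, 16), (18, 4, 18), (24, 2, 24), (26, 4, 26), (32, 1, 32), (34, 1, 34), (40, 1, 40), (42, 1, 42), (48, 1, 48), (50, 1, 50), (56, 1, 56), (58, 1, 58)]),
  (59, [(1, 1, 1), (1, 2, 0), (3, 1, 3), (3, 4, 2), (8, 2, 8), (9, 1, 9), (10, 4, 10), (11, 1, 11), (16, 2, 16), (17, 1, 17), (18, 4, 18), (19, 1, 19), (24, 2, 24), (25, 1, 25), (26, 4, 26), (27, 1, 27), (32, 2, 32), (33, 1, 33), (34, 4, 34), (35, 1, 35), (40, 2, 40), (41, 1, 41), (42, 4, 42), (43, 1, 43), (48, 2, 48), (49, 1, 49), (50, 4, 50), (51, 1, 51), (56, 2, 56), (57, 1, 57), (58, 4, 58), (59, 1, 59)]),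
  (60, [(0, 1, 0), (4, 1, 4), (8, 1, 8), (12, 1, 12), (16, 1, 16), (20, 1, 20), (24, 1, 24), (28, 1, 28), (36, 4, 36), (40, 8, 40), (44, 4, 44), (48, 16, 48), (52, 4, 52), (56, 8, 56), (60, 4, 60), (36, 2, 32)]),
  (61, [(1, 1, 0), (4, 1, 4), (5, 4, 5), (8, 1, 8), (9, 8, 9), (12, 1, 12), (13, 4, 13), (16, 1, 16), (17, 16, 17), (20, 1, 20), (21, 4, 21), (24, 1, 24), (25, 8, 25), (28, 1, 28), (29, 4, 29), (32, 1, 32), (33, 32, 33), (36, 1, 36), (37, 4, 37), (40, 1, 40), (41, 8, 41), (44, 1, 44), (45, 4, 45), (48, 1, 48), (49, 16, 49), (52, 1, 52), (53, 4, 53), (56, 1, 56), (57, 8, 57), (60, 1, 60), (61, 4, 61), (5, 2, 1)]),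
  (62, [(2, 2, 2), (2, 32, 0), (4, 4, 4), (6, 2, 6), (8, 8, 8), (10, 2, 10), (12, 4, 12), (14, 2, 14), (16, 16, 16), (18, 2, 18), (20, 4, 20), (22, 2, 22), (24, 8, 24), (26, 2, 26), (28, 4, 28), (30, 2, 30), (34, 2, 34), (36, 4, 36), (38, 2, 38), (40, 8, 40), (42, 2, 42), (44, 4, 44), (46, 2, 46), (48, 16, 48), (50, 2, 50), (52, 4, 52), (54, 2, 54), (56, 8, 56), (58, 2, 58), (60, 4, 60), (62, 2, 62), (34, 1, 32)])]

/-- powers of 2 -/
def isP (b : ℕ) : Bool := [1, 2, 4, 8, 16, 32].contains b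

theorem certs_ok : certs.all (fun e => chk e.1 (if isP e.1 then e.1 else 64) e.2 []) = true := by decide +kernel

theorem certs_all : (List.range 63).all (fun b => b == 0 || certs.any fun e => e.1 == b) = true := by decide +kernel

theorem rel_zero {k : Type*} [Field k] [CharP k 2] {b : ℕ} (hb0 : 0 < b) (hb : b < 63) {γ : ℕ → k} (h : Rel b γ) :
    ∀ x ≤ b, x ≠ (if isP b then b else 64) → γ x = 0 := by
  have h1 := List.all_eq_true.1 certs_all b (List.mem_range.2 hb)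
  simp only [Bool.or_eq_true, beq_iff_eq, List.any_eq_true] at h1
  rcases h1 with h1 | ⟨e, he, h1⟩
  · omega
  · have h2 := List.all_eq_true.1 certs_ok e he
    rw [h1] at h2
    exact chk_sound hb h e.2 [] (by simp) h2

end Cfsg.Agent.H179.SLC
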