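import Cfsg.Agent.H179.SLC.Iface
import Cfsg.Agent.H875.L64.Table

/-!
# S5915: the pressure inequality PR (helper179; uniqueness: helper875)
-/

set_option autoImplicit false

namespace Cfsg.Agent.H179.SLC

open Matrix Cfsg.Agent.H943.SL2Rel Cfsg.Agent.H943.RepAdd Cfsg.Agent.H943.SL2Mod Cfsg.Agent.H939.L64

universe v

/-- **PR** -/
theorem PR {k : Type*} [Field k] [IsAlgClosed k] [CharP k 2] {F : Type*} [Field F] [Fintype F] [DecidableEq F]
    {ι : F →+* k} {lam : Fˣ} {y : SpecialLinearGroup (Fin 2) F} {ζ : k} (D : Dat ι lam y ζ) {V : Type v} [AddCommGroup V]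
    [Module k V] [FiniteDimensional k V] (ρ : Representation k (SpecialLinearGroup (Fin 2) F) V) {m : ℕ → ℕ}
    (hm : SpecM ι ρ lam y ζ m) : m 0 ≤ Module.finrank k (fixS ρ) + ∑ i ∈ Finset.range 6, m (2 ^ i) := by
  obtain ⟨n, hn, h⟩ := exists_pressure D ρ
  have h1 : ∀ b < 64, m b = n b := by
    intro b hb
    have h2 := H875.L64.R3b (fun b => (m b : ℤ)) (fun b => (n b : ℤ)) (fun j hj => by
      have h3 := (hm.1 j hj).symm.trans (hn.1 j hj)
      exact_mod_cast h3) (fun j hj => by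
      have h3 := (hm.2 j hj).symm.trans (hn.2 j hj)
      exact_mod_cast h3) b hb
    exact_mod_cast h2
  rw [h1 0 (by norm_num)]
  refine h.trans_eq ?_
  congr 1
  refine Finset.sum_congr rfl fun i hi => (h1 _ ?_).symm
  have : 2 ^ i < 2 ^ 6 := Nat.pow_lt_pow_right (by norm_num) (Finset.mem_range.1 hi)
  omega

end Cfsg.Agent.H179.SLC
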